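import Mathlib
import Cfsg.Agent.Lib.GL.MultRoot

/-!
Conjugacy classes of elements of prime order in projective linear and unitary groups.
-/

set_option autoImplicit false

open Module Matrix Polynomial

namespace Cfsg.Agent.Lib.GL.ProjClass

open Cfsg.Agent.Lib.GL.Mult Cfsg.Agent.Lib.GL.ClassCount

section Comb

/-- Pairs of a shift and a multiplicity function invariant under it. -/
@[ext] structure Y (r n : ℕ) [NeZero r] : Type where
  k : ZMod r
  m : ZMod r → ℕ
  sum : ∑ j, m j = n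
  inv : ∀ j, m (j + k) = m j

variable {r n : ℕ}

instance addActionY [NeZero r] : AddAction (ZMod r) (Y r n) where
  vadd a y := ⟨y.k, fun j => y.m (j + a), (Equiv.sum_comp (Equiv.addRight a) y.m).trans y.sum,
    fun j => by rw [add_right_comm]; exact y.inv _⟩
  zero_vadd y := Y.ext rfl (funext fun j => congrArg y.m (add_zero j))
  add_vadd a b y := Y.ext rfl (funext fun j => congrArg y.m (add_assoc j a b).symm)

theorem vadd_k [NeZero r] (a : ZMod r) (y : Y r n) : (a +ᵥ y).k = y.k := rfl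

theorem vadd_m [NeZero r] (a : ZMod r) (y : Y r n) (j : ZMod r) : (a +ᵥ y).m j = y.m (j + a) := rfl

instance finiteY [NeZero r] : Finite (Y r n) :=
  Finite.of_injective (fun y => (y.k, (⟨y.m, y.sum⟩ : {m : ZMod r → ℕ // ∑ j, m j = n})))
    fun a b h => Y.ext (by simpa using congrArg Prod.fst h) (by simpa using congrArg Prod.snd h)

theorem const_of_shift [Fact r.Prime] {a : ZMod r} (ha : a ≠ 0) {m : ZMod r → ℕ}
    (h : ∀ j, m (j + a) = m j) (j : ZMod r) : m j = m 0 := by
  have : ∀ k : ℕ, m (k * a) = m 0 := by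
    intro k
    induction k with
    | zero => simp
    | succ k ih => rw [Nat.cast_succ, add_mul, one_mul, h, ih]
  rw [← this (j / a).val, ZMod.natCast_zmod_val, div_mul_cancel₀ _ ha]

theorem card_const [Fact r.Prime] (P : (ZMod r → ℕ) → Prop) (hP : ∀ m, P m ↔ ∀ j, m j = m 0) :
    Nat.card {m : ZMod r → ℕ // ∑ j, m j = n ∧ P m} = if r ∣ n then 1 else 0 := by
  have hr : r.Prime := Fact.out
  have key : ∀ m : ZMod r → ℕ, P m → ∑ j, m j = r * m 0 := fun m hm => by
    rw [Finset.sum_congr rfl fun j _ => (hP m).1 hm j]; simp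
  split_ifs with h
  · obtain ⟨c, rfl⟩ := h
    rw [Nat.card_eq_one_iff_exists]
    refine ⟨⟨fun _ => c, by simp, (hP _).2 fun _ => rfl⟩, fun m => Subtype.ext (funext fun j => ?_)⟩
    rw [(hP _).1 m.2.2 j]
    exact Nat.eq_of_mul_eq_mul_left hr.pos ((key _ m.2.2).symm.trans m.2.1)
  · rw [Nat.card_eq_zero]
    exact Or.inl ⟨fun m => h ⟨_, m.2.1.symm.trans (key _ m.2.2)⟩⟩

theorem card_fixedBy [Fact r.Prime] (a : ZMod r) :
    Nat.card (AddAction.fixedBy (Y r n) a) = ∑ k : ZMod r, Nat.card {m : ZMod r → ℕ //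
      ∑ j, m j = n ∧ (∀ j, m (j + k) = m j) ∧ ∀ j, m (j + a) = m j} := by
  have := fun k => finite_sum_eq_and n
    (fun m : ZMod r → ℕ => (∀ j, m (j + k) = m j) ∧ ∀ j, m (j + a) = m j)
  rw [← Nat.card_sigma]
  exact Nat.card_congr
    { toFun := fun y => ⟨y.1.k, y.1.m, y.1.sum, y.1.inv, congrFun (congrArg Y.m y.2)⟩
      invFun := fun z => ⟨⟨z.1, z.2.1, z.2.2.1, z.2.2.2.1⟩, Y.ext rfl (funext z.2.2.2.2)⟩
      left_inv := fun _ => rfl
      right_inv := fun _ => rfl }

theorem card_orbits [Fact r.Prime] (hn : 1 ≤ n) :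
    Nat.card (Quotient (AddAction.orbitRel (ZMod r) (Y r n))) - 1 =
      (Nat.choose (n + r - 1) (r - 1) - r - (if r ∣ n then 1 else 0)) / r +
        r * (if r ∣ n then 1 else 0) := by
  classical
  have hr : r.Prime := Fact.out
  have hr2 := hr.two_le
  let : ∀ a : ZMod r, Fintype (AddAction.fixedBy (Y r n) a) := fun _ => Fintype.ofFinite _
  let : Fintype (Quotient (AddAction.orbitRel (ZMod r) (Y r n))) := Fintype.ofFinite _
  have h := AddAction.sum_card_fixedBy_eq_card_orbits_mul_card_addGroup (ZMod r) (Y r n)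
  simp only [← Nat.card_eq_fintype_card, card_fixedBy, Nat.card_zmod] at h
  set e := if r ∣ n then 1 else 0 with he
  set C := Nat.choose (n + r - 1) (r - 1) with hC
  have he1 : e ≤ 1 := by rw [he]; split_ifs <;> omega
  have hCr : r ≤ C := by
    have := Nat.choose_le_choose (r - 1) (show r - 1 + 1 ≤ n + r - 1 by omega)
    rw [Nat.choose_succ_self_right] at this
    omega
  have h1 : ∀ a k : ZMod r, Nat.card {m : ZMod r → ℕ //
      ∑ j, m j = n ∧ (∀ j, m (j + k) = m j) ∧ ∀ j, m (j + a) = m j} =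
      e + if k = 0 then (if a = 0 then C - e else 0) else 0 := by
    intro a k
    by_cases hk : k = 0
    · by_cases ha : a = 0
      · simp only [hk, ha, add_zero, implies_true, and_true, if_true, card_sum_eq, ZMod.card]
        rw [Nat.add_sub_cancel' (by omega), hC, add_comm r,
          Nat.choose_symm_of_eq_add (show n + r - 1 = n + (r - 1) by omega)]
      · rw [if_pos hk, if_neg ha, add_zero]
        exact card_const _ fun m => ⟨fun h => const_of_shift ha h.2,
          fun h => ⟨fun j => by rw [h, h j], fun j => by rw [h, h j]⟩⟩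
    · rw [if_neg hk, add_zero]
      exact card_const _ fun m => ⟨fun h => const_of_shift hk h.1,
        fun h => ⟨fun j => by rw [h, h j], fun j => by rw [h, h j]⟩⟩
  simp only [h1, Finset.sum_add_distrib, Finset.sum_const, Finset.card_univ, ZMod.card, smul_eq_mul,
    Finset.sum_ite_eq', Finset.mem_univ, if_true] at h
  set O := Nat.card (Quotient (AddAction.orbitRel (ZMod r) (Y r n)))
  have h2 : r * e < O := by
    by_contra h3
    have : O * r ≤ r * e * r := Nat.mul_le_mul_right _ (not_lt.1 h3)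
    have : r * e * r = r * (r * e) := mul_comm _ _
    omega
  obtain ⟨d, hd⟩ := Nat.exists_eq_add_of_lt h2
  have h3 : C - r - e = d * r := by
    rw [hd, add_mul, add_mul, mul_comm (r * e) r] at h
    omega
  rw [h3, Nat.mul_div_cancel _ hr.pos]
  omega

end Comb

section Main

variable {K L : Type*} [Field K] [Field L] [IsAlgClosed L] {ι : Type*} [Fintype ι] [DecidableEq ι]
  {G : Type*} [Group G] [Finite G] {r : ℕ} [Fact r.Prime]

/-- Classes of elements of order `r` modulo the centre, for a linear group whose centre is a cyclic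
group of scalars generated by `c₀`. -/
theorem card_classes_projective [Nonempty ι] (φ : K →+* L) (ρ : G →* Matrix ι ι K)
    (hρ : Function.Injective ρ) (hconj : ∀ g g', IsConj (ρ g) (ρ g') → IsConj g g')
    (c₀ : G) (hZ : Subgroup.center G = Subgroup.zpowers c₀) (a₀ : K) (ha₀ : ρ c₀ = a₀ • 1)
    (hr : r ∣ orderOf c₀) (ω : L) (hω : ω ^ r = φ a₀) (ζ : L) (hζ : IsPrimitiveRoot ζ r)
    (hex : ∀ (k : ZMod r) (m : ZMod r → ℕ), ∑ j, m j = Fintype.card ι → (∀ j, m (j + k) = m j) →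
      ∃ g, mv φ ζ (ω ^ k.val) r (ρ g) = m)
    (hinv : ∀ (k : ZMod r) g j, mv φ ζ (ω ^ k.val) r (ρ g) (j + k) = mv φ ζ (ω ^ k.val) r (ρ g) j) :
    Nat.card {C : ConjClasses (G ⧸ Subgroup.center G) // ∃ g, ConjClasses.mk g = C ∧ orderOf g = r} =
      (Nat.choose (Fintype.card ι + r - 1) (r - 1) - r - (if r ∣ Fintype.card ι then 1 else 0)) / r +
        r * (if r ∣ Fintype.card ι then 1 else 0) := by
  classical
  have hp : r.Prime := Fact.out
  have hsm : ∀ a b : K, a • (1 : Matrix ι ι K) = b • 1 → a = b := fun a b h => by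
    obtain ⟨i⟩ := ‹Nonempty ι›
    simpa using congrFun (congrFun h i) i
  have hc : ∀ e : ℕ, ρ (c₀ ^ e) = a₀ ^ e • 1 := fun e => by rw [map_pow, ha₀, _root_.smul_pow, one_pow]
  have hZ' : ∀ z ∈ Subgroup.center G, ∃ e : ℕ, c₀ ^ e = z := fun z hz =>
    mem_powers_iff_mem_zpowers.2 (hZ ▸ hz)
  have hcZ : ∀ e : ℕ, c₀ ^ e ∈ Subgroup.center G := fun e => hZ ▸ Subgroup.npow_mem_zpowers _ _
  have hcomm : ∀ (e : ℕ) g, Commute (c₀ ^ e) g := fun e g =>
    (Subgroup.mem_center_iff.1 (hcZ e) g).symm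
  have ha0 : a₀ ≠ 0 := by
    intro h
    have := hc (orderOf c₀)
    rw [pow_orderOf_eq_one, map_one, h, zero_pow (orderOf_pos _).ne'] at this
    exact one_ne_zero (hsm 1 0 (by rw [one_smul]; exact this))
  have hω0 : ω ≠ 0 := by
    rintro rfl
    rw [zero_pow hp.ne_zero, eq_comm, map_eq_zero] at hω
    exact ha0 hω
  have hωk : ∀ k : ℕ, (ω ^ k) ^ r = φ (a₀ ^ k) := fun k => by
    rw [← pow_mul, mul_comm, pow_mul, hω, map_pow]
  -- every `r`-th root of unity is a scalar of the centre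
  have hroot : ∀ j : ZMod r, ∃ e : ℕ, φ (a₀ ^ e) = rt ζ j := by
    obtain ⟨d, hd⟩ := hr
    have h1 : orderOf (c₀ ^ d) = r := by
      have hd0 : d ≠ 0 := by rintro rfl; exact (orderOf_pos c₀).ne' (by simpa using hd)
      rw [orderOf_pow' _ hd0, hd, Nat.gcd_mul_left_left, Nat.mul_div_cancel _ (Nat.pos_of_ne_zero hd0)]
    have h2 : IsPrimitiveRoot (φ (a₀ ^ d)) r := by
      refine IsPrimitiveRoot.map_of_injective ?_ φ.injective
      rw [← h1]
      have : orderOf (c₀ ^ d) = orderOf (a₀ ^ d) := by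
        rw [← orderOf_injective ρ hρ, hc, ← Algebra.algebraMap_eq_smul_one]
        exact orderOf_injective (algebraMap K (Matrix ι ι K)).toMonoidHom
          (algebraMap K _).injective _
      rw [this]
      exact IsPrimitiveRoot.orderOf _
    intro j
    obtain ⟨i, -, hi⟩ := h2.eq_pow_of_pow_eq_one (rt_pow hζ j)
    exact ⟨d * i, by rw [pow_mul, map_pow, hi]⟩
  have hshift : ∀ (e : ℕ) (j : ZMod r) (μ : L) (g : G), φ (a₀ ^ e) = rt ζ j → ∀ i,
      mv φ ζ μ r (ρ (c₀ ^ e * g)) (i + j) = mv φ ζ μ r (ρ g) i := by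
    intro e j μ g h i
    rw [mv, mv, map_mul, hc, smul_one_mul, rt_add hζ, ← mul_assoc, mul_comm, ← h,
      mult_smul φ _ (pow_ne_zero _ ha0)]
  let R : G ⧸ Subgroup.center G → Y r (Fintype.card ι) → Prop := fun x y =>
    ∃ g : G, (g : G ⧸ Subgroup.center G) = x ∧ g ^ r = c₀ ^ y.k.val ∧
      mv φ ζ (ω ^ y.k.val) r (ρ g) = y.m
  have R1 : ∀ x, x ^ r = 1 → ∃ y, R x y := by
    intro x hx
    obtain ⟨g, rfl⟩ := QuotientGroup.mk_surjective x
    obtain ⟨e, he⟩ := hZ' _ ((QuotientGroup.eq_one_iff (g ^ r)).1 hx)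
    obtain ⟨f, hf⟩ := hZ' _ (inv_mem (hcZ (e / r)))
    have h1 : (c₀ ^ f * g) ^ r = c₀ ^ (e : ZMod r).val := by
      rw [(hcomm f g).mul_pow, hf, ← he, inv_pow, inv_mul_eq_iff_eq_mul, ← pow_mul, ← pow_add,
        ZMod.val_natCast, Nat.div_add_mod']
    refine ⟨⟨e, _, (sum_mv_iff φ hζ (pow_ne_zero _ hω0) (hωk _) (ρ (c₀ ^ f * g))).2
      (by rw [← map_pow, h1, hc]), hinv _ _⟩, c₀ ^ f * g, ?_, h1, rfl⟩
    rw [QuotientGroup.mk_mul, (QuotientGroup.eq_one_iff _).2 (hcZ f), one_mul]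
  have R2 : ∀ y, ∃ x, x ^ r = 1 ∧ R x y := by
    intro y
    obtain ⟨g, hg⟩ := hex y.k y.m y.sum y.inv
    have h1 : g ^ r = c₀ ^ y.k.val := hρ (by
      rw [map_pow, hc]
      exact (sum_mv_iff φ hζ (pow_ne_zero _ hω0) (hωk _) _).1 (hg ▸ y.sum))
    exact ⟨g, (QuotientGroup.eq_one_iff (g ^ r)).2 (h1 ▸ hcZ _), g, rfl, h1, hg⟩
  have R3 : ∀ x x' y y', R x y → R x' y' →
      (IsConj x x' ↔ (AddAction.orbitRel (ZMod r) _) y y') := by
    rintro _ _ y y' ⟨g, rfl, h1, h2⟩ ⟨g', rfl, h1', h2'⟩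
    rw [AddAction.orbitRel_apply, AddAction.mem_orbit_iff]
    constructor
    · intro h
      obtain ⟨x, hx⟩ := isConj_iff.1 h
      obtain ⟨x, rfl⟩ := QuotientGroup.mk_surjective x
      obtain ⟨e, he⟩ := hZ' _ (QuotientGroup.eq.1 (show ((x * g * x⁻¹ : G) : G ⧸ Subgroup.center G) = g'
        from hx))
      have h3 : g' = x * (c₀ ^ e * g) * x⁻¹ := by
        rw [eq_inv_mul_iff_mul_eq, ← (hcomm e _).eq] at he
        rw [← he, ← mul_assoc, ← mul_assoc, (hcomm e x).eq, mul_assoc x]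
      have h4 : c₀ ^ y'.k.val = c₀ ^ (e * r + y.k.val) := by
        rw [← h1', h3, conj_pow, (hcomm e g).mul_pow, h1, ← pow_mul, ← pow_add, ← (hcomm _ x).eq,
          mul_inv_cancel_right]
      have h5 : y'.k = y.k := by
        have := (Nat.ModEq.of_dvd hr (pow_eq_pow_iff_modEq.1 h4))
        rw [← ZMod.natCast_eq_natCast_iff] at this
        simpa using this
      have h6 : φ (a₀ ^ e) ^ r = 1 := by
        rw [h5, pow_add, eq_comm, mul_eq_right] at h4
        have := hc (e * r)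
        rw [h4, map_one] at this
        rw [← map_pow, ← pow_mul, ← hsm 1 (a₀ ^ (e * r)) (by rw [one_smul]; exact this), map_one]
      obtain ⟨j, hj⟩ := exists_rt_eq hζ h6
      refine ⟨j, Y.ext h5 (funext fun i => ?_)⟩
      rw [vadd_m, ← h2, ← h2', ← hshift e j _ g hj.symm, h5]
      exact (mult_of_isConj φ (ρ.map_isConj (isConj_iff.2 ⟨x, h3.symm⟩)) _).symm
    · rintro ⟨j, rfl⟩
      obtain ⟨e, he⟩ := hroot j
      have h3 : (c₀ ^ e) ^ r = 1 := hρ (by
        rw [← pow_mul, hc, map_one, pow_mul]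
        have : (a₀ ^ e) ^ r = 1 := φ.injective (by rw [map_pow, he, rt_pow hζ, map_one])
        rw [this, one_smul])
      have h4 : IsConj (c₀ ^ e * g) g' := hconj _ _ ((isConj_iff_mv φ hζ (pow_ne_zero _ hω0)
        (hωk y'.k.val) (by rw [← map_pow, (hcomm e g).mul_pow, h3, one_mul, h1, hc, vadd_k])
        (by rw [← map_pow, h1', hc])).2 (funext fun i => by
          rw [← sub_add_cancel i j, hshift e j _ g he, h2']
          exact congrFun h2 (i - j)))
      have := (QuotientGroup.mk' (Subgroup.center G)).map_isConj h4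
      rwa [map_mul, QuotientGroup.mk'_apply, (QuotientGroup.eq_one_iff _).2 (hcZ e), one_mul] at this
  let Φ : G ⧸ Subgroup.center G → Quotient (AddAction.orbitRel (ZMod r) (Y r (Fintype.card ι))) :=
    fun x => if h : x ^ r = 1 then Quotient.mk _ (R1 x h).choose else
      Quotient.mk _ (R1 1 (one_pow r)).choose
  rw [card_classes_orderOf hp Φ (fun _ => True), Nat.card_congr (Equiv.subtypeUnivEquiv fun _ => trivial),
    card_orbits Fintype.card_pos]
  · intro x x' hx hx'
    simp only [Φ, dif_pos hx, dif_pos hx', Quotient.eq]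
    exact R3 _ _ _ _ (R1 x hx).choose_spec (R1 x' hx').choose_spec
  · intro y
    obtain ⟨y, rfl⟩ := Quotient.mk_surjective y
    obtain ⟨x, hx, hxy⟩ := R2 y
    refine ⟨fun _ => ⟨x, hx, ?_⟩, fun _ => trivial⟩
    simp only [Φ, dif_pos hx, Quotient.eq]
    exact (R3 _ _ _ _ (R1 x hx).choose_spec hxy).1 (IsConj.refl _)

end Main

end Cfsg.Agent.Lib.GL.ProjClass
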