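import Mathlib
import Cfsg.Agent.Lib.GL.ProjClass
import Cfsg.Agent.Lib.GL.SpReal

/-!
Conjugacy classes of elements of prime order in `PGL` and `PGU`.
-/

set_option autoImplicit false

open Module Matrix Polynomial

namespace Cfsg.Agent.Lib.GL.ProjClass

open Cfsg.Agent.Lib.GL.Mult Cfsg.Agent.Lib.GL.ClassCount Cfsg.Agent.Lib.GL.Sim
  Cfsg.Agent.Lib.GL.Herm Cfsg.Agent.Lib.GL.HermConj Cfsg.Agent.Lib.GL.SpReal Cfsg.Agent.Lib.GL.Isom

theorem isPrimitiveRoot_of_root {K L : Type*} [Field K] [Field L] (φ : K →+* L) {r : ℕ}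
    [Fact r.Prime] {x : K} {N : ℕ} (hx : orderOf x = N) (hN : 0 < N) (hr : r ∣ N) {ω : L}
    (hω : ω ^ r = φ x) : IsPrimitiveRoot (ω ^ N) r := by
  have hp : r.Prime := Fact.out
  obtain ⟨d, hd⟩ := hr
  have h1 : orderOf (ω ^ N) = r := by
    refine orderOf_eq_prime ?_ ?_
    · rw [← pow_mul, mul_comm, pow_mul, hω, ← map_pow, ← hx, pow_orderOf_eq_one, map_one]
    · rw [hd, pow_mul, hω, ← map_pow, Ne, map_eq_one_iff φ φ.injective]
      have hd0 : 0 < d := Nat.pos_of_ne_zero (by rintro rfl; omega)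
      exact pow_ne_one_of_lt_orderOf hd0.ne' (by rw [hx, hd]; nlinarith [hp.two_le])
  exact h1 ▸ IsPrimitiveRoot.orderOf _

theorem card_classes_PGL {F : Type*} [Field F] [Fintype F] {n r : ℕ} (hn : 1 ≤ n) (hr : r.Prime)
    (hrq : r ∣ Fintype.card F - 1) :
    Nat.card {C : ConjClasses (GL (Fin n) F ⧸ Subgroup.center (GL (Fin n) F)) //
      ∃ g, ConjClasses.mk g = C ∧ orderOf g = r} =
      (Nat.choose (n + r - 1) (r - 1) - r - (if r ∣ n then 1 else 0)) / r +
        r * (if r ∣ n then 1 else 0) := by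
  classical
  have : Fact r.Prime := ⟨hr⟩
  have : Nonempty (Fin n) := ⟨⟨0, hn⟩⟩
  let φ := algebraMap F (AlgebraicClosure F)
  obtain ⟨x, hx⟩ := IsCyclic.exists_generator (α := Fˣ)
  have hx' : orderOf (x : F) = Fintype.card F - 1 := by
    rw [orderOf_units, orderOf_eq_card_of_forall_mem_zpowers hx, Nat.card_units,
      Nat.card_eq_fintype_card]
  have hq : 1 < Fintype.card F := Fintype.one_lt_card
  obtain ⟨ω, hω⟩ := IsAlgClosed.exists_pow_nat_eq (φ x) hr.pos
  have hω0 : ω ≠ 0 := by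
    rintro rfl
    rw [zero_pow hr.ne_zero, eq_comm, map_eq_zero] at hω
    exact x.ne_zero hω
  have hζ := isPrimitiveRoot_of_root φ hx' (by omega) hrq hω
  set ζ := ω ^ (Fintype.card F - 1) with hζd
  have hq1 : (Fintype.card F : ZMod r) = 1 := by
    have := (ZMod.natCast_eq_zero_iff _ _).2 hrq
    rwa [Nat.cast_sub hq.le, Nat.cast_one, sub_eq_zero] at this
  have key : ∀ k j : ZMod r, ω ^ k.val * rt ζ (j + k) = (ω ^ k.val * rt ζ j) ^ Fintype.card F := by
    intro k j
    rw [mul_pow, ← rt_natCast_mul hζ, hq1, one_mul, rt_add hζ, rt, rt, hζd, ← pow_mul _ _ k.val,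
      ← pow_mul _ k.val]
    obtain ⟨s, hs⟩ := Nat.exists_eq_add_of_lt hq
    rw [hs]; simp only [add_tsub_cancel_right]; ring
  have h := card_classes_projective φ (Units.coeHom (Matrix (Fin n) (Fin n) F)) Units.val_injective
    (fun g g' h => isConj_units_iff.2 h) (Matrix.GeneralLinearGroup.scalar (Fin n) x) (by
      rw [Matrix.GeneralLinearGroup.center_eq_range_scalar, ← MonoidHom.map_zpowers,
        (Subgroup.eq_top_iff' _).2 hx, MonoidHom.range_eq_map]) x (by ext i j; simp [one_apply, diagonal_apply])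
    (by
      rw [orderOf_injective _ (fun a b h => Units.ext (by
        simpa using congrArg (fun g : GL (Fin n) F => g.1 ⟨0, hn⟩ ⟨0, hn⟩) h)), ← orderOf_units, hx']
      exact hrq) ω hω ζ hζ
    (fun k m hm hk => by
      obtain ⟨A, hA⟩ := exists_matrix_mult (ι := Fin n) φ
        (mul_rt_injective hζ (pow_ne_zero k.val hω0)) m hm fun j => ⟨j + k, key k j, hk j⟩
      have h1 : mv φ ζ (ω ^ k.val) r A = m := funext hA
      obtain ⟨u, rfl⟩ := isUnit_of_pow_eq_smul (pow_ne_zero k.val x.ne_zero)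
        ((sum_mv_iff φ hζ (pow_ne_zero k.val hω0) (by
          rw [← pow_mul, mul_comm, pow_mul, hω, map_pow]) A).1 (h1 ▸ hm))
      exact ⟨u, h1⟩)
    (fun k g j => by
      obtain ⟨τ, hτ⟩ := exists_frob φ
      rw [mv, mv, key, ← hτ]
      exact mult_frob φ τ (fun a => by rw [hτ, ← map_pow, FiniteField.pow_card]) _ _)
  simpa using h

section GU

variable {K : Type*} [Field K] [Fintype K] {q n : ℕ} {σ : K →+* K}

theorem exists_generator_norm_one (hK : Fintype.card K = q ^ 2) (hσ : IsInvol σ) :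
    ∃ x : K, x * σ x = 1 ∧ orderOf x = q + 1 ∧ ∀ c, c * σ c = 1 → ∃ e : ℕ, x ^ e = c := by
  let H : Subgroup Kˣ := (MonoidHom.id Kˣ * Units.map (σ : K →* K)).ker
  have hH : ∀ u : Kˣ, u ∈ H ↔ (u : K) * σ u = 1 := fun u => by
    rw [MonoidHom.mem_ker, Units.ext_iff]; rfl
  have hc : Nat.card H = q + 1 := by
    rw [← hσ.card_norm_one hK]
    exact Nat.card_congr
      { toFun := fun u => ⟨u.1, (hH _).1 u.2⟩
        invFun := fun c => ⟨Units.mk0 c.1 (left_ne_zero_of_mul_eq_one c.2), (hH _).2 c.2⟩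
        left_inv := fun u => by ext; rfl
        right_inv := fun c => rfl }
  obtain ⟨x, hx⟩ := IsCyclic.exists_generator (α := H)
  refine ⟨x.1, (hH _).1 x.2, ?_, fun c hc => ?_⟩
  · rw [orderOf_units, Subgroup.orderOf_coe, orderOf_eq_card_of_forall_mem_zpowers hx, hc]
  · obtain ⟨e, he⟩ := mem_powers_iff_mem_zpowers.2
      (hx ⟨Units.mk0 c (left_ne_zero_of_mul_eq_one hc), (hH _).2 hc⟩)
    exact ⟨e, by simpa using congrArg (fun u : H => (u.1 : K)) he⟩

/-- The centre of the unitary group consists of scalars. -/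
theorem exists_scalar_of_mem_center_GU (hK : Fintype.card K = q ^ 2) {z : Cfsg.GU n K q}
    (hz : z ∈ Subgroup.center (Cfsg.GU n K q)) :
    ∃ c : K, ((z : GL (Fin n) K) : Matrix (Fin n) (Fin n) K) = c • 1 := by
  classical
  obtain ⟨σ, hσq, hσ⟩ := exists_isInvol hK
  obtain ⟨x, hx, hx1, -⟩ := exists_generator_norm_one hK hσ
  have hq := one_lt_of_card_eq_sq hK
  have hx2 : x ≠ 1 := by rintro rfl; rw [orderOf_one] at hx1; omega
  have hcomm : ∀ A : Matrix (Fin n) (Fin n) K, Aᵀ * A.map σ = 1 → A * z.1.1 = z.1.1 * A :=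
    fun A hA => congrArg (fun g : Cfsg.GU n K q => g.1.1)
      (Subgroup.mem_center_iff.1 hz (guMk hσq A hA))
  have h1 : ∀ i j, i ≠ j → z.1.1 i j = 0 := by
    intro i j hij
    have := congrFun (congrFun (hcomm (diagonal (Function.update 1 i x)) (by
      rw [diagonal_map (map_zero σ), diagonal_transpose, diagonal_mul_diagonal, ← diagonal_one]
      congr 1; ext a
      by_cases ha : a = i <;> simp [ha, hx])) i) j
    simp only [diagonal_mul, mul_diagonal, Function.update_self, Function.update_of_ne hij.symm,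
      Pi.one_apply, mul_one] at this
    exact (mul_left_eq_self₀.1 this).resolve_left hx2
  have h2 : ∀ i j, z.1.1 i i = z.1.1 j j := by
    intro i j
    have := congrFun (congrFun (hcomm ((Equiv.swap i j).permMatrix K) (by
      have : ((Equiv.swap i j).permMatrix K).map σ = (Equiv.swap i j).permMatrix K := by
        ext a b; simp [PEquiv.toMatrix_apply]
      rw [this, transpose_permMatrix, ← permMatrix_mul]; simp)) i) j
    simpa [PEquiv.toMatrix_toPEquiv_mul, PEquiv.mul_toMatrix_toPEquiv, eq_comm] using this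
  rcases isEmpty_or_nonempty (Fin n) with h | ⟨⟨i₀⟩⟩
  · exact ⟨0, Subsingleton.elim _ _⟩
  · refine ⟨z.1.1 i₀ i₀, Matrix.ext fun i j => ?_⟩
    by_cases hij : i = j
    · simp [hij, h2 j i₀]
    · simp [hij, h1 i j hij]

theorem card_classes_PGU (hK : Fintype.card K = q ^ 2) {r : ℕ} (hn : 1 ≤ n) (hr : r.Prime)
    (hrq : r ∣ q + 1) :
    Nat.card {C : ConjClasses (Cfsg.GU n K q ⧸ Subgroup.center (Cfsg.GU n K q)) //
      ∃ g, ConjClasses.mk g = C ∧ orderOf g = r} =
      (Nat.choose (n + r - 1) (r - 1) - r - (if r ∣ n then 1 else 0)) / r +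
        r * (if r ∣ n then 1 else 0) := by
  classical
  have : Fact r.Prime := ⟨hr⟩
  have : Nonempty (Fin n) := ⟨⟨0, hn⟩⟩
  obtain ⟨σ, hσq, hσ⟩ := exists_isInvol hK
  let φ := algebraMap K (AlgebraicClosure K)
  obtain ⟨x, hx, hx', hgen⟩ := exists_generator_norm_one hK hσ
  have hx0 : x ≠ 0 := left_ne_zero_of_mul_eq_one hx
  obtain ⟨ω, hω⟩ := IsAlgClosed.exists_pow_nat_eq (φ x) hr.pos
  have hω0 : ω ≠ 0 := by
    rintro rfl
    rw [zero_pow hr.ne_zero, eq_comm, map_eq_zero] at hω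
    exact hx0 hω
  have hζ := isPrimitiveRoot_of_root φ hx' (by omega) hrq hω
  set ζ := ω ^ (q + 1) with hζd
  have hq1 : (q : ZMod r) = -1 := by
    have := (ZMod.natCast_eq_zero_iff _ _).2 hrq
    rwa [Nat.cast_succ, add_eq_zero_iff_eq_neg] at this
  have hne : ∀ k j : ZMod r, ω ^ k.val * rt ζ j ≠ 0 := fun k j =>
    mul_ne_zero (pow_ne_zero _ hω0) (rt_ne_zero hζ j)
  have key : ∀ k j : ZMod r, (ω ^ k.val * rt ζ (j + k)) ^ q = (ω ^ k.val * rt ζ j)⁻¹ := by
    intro k j
    refine eq_inv_of_mul_eq_one_left ?_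
    have h1 : rt ζ k = (ω ^ k.val) ^ q * ω ^ k.val := by rw [rt, hζd]; ring
    rw [mul_pow, ← rt_natCast_mul hζ, hq1, mul_mul_mul_comm, ← h1, ← rt_add hζ, ← rt_add hζ]
    simp [rt_zero]
  have hsc : ∀ c : K, c * σ c = 1 → (c • (1 : Matrix (Fin n) (Fin n) K))ᵀ *
      (c • (1 : Matrix (Fin n) (Fin n) K)).map σ = 1 := by
    intro c hc
    rw [unitary_iff hσ, adj_smul, adj_one, smul_mul_smul_comm, mul_comm, hc, one_mul, one_smul]
  let ρ : Cfsg.GU n K q →* Matrix (Fin n) (Fin n) K := (Units.coeHom _).comp (Subgroup.subtype _)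
  have hρ : Function.Injective ρ := Units.val_injective.comp Subtype.val_injective
  have hadj : ∀ (A : GL (Fin n) K) (k j : ZMod r),
      mv φ ζ (ω ^ k.val) r (adj (Fin n) σ (A⁻¹ : GL (Fin n) K)) j =
        mv φ ζ (ω ^ k.val) r (A : Matrix (Fin n) (Fin n) K) (j + k) := by
    intro A k j
    rw [mv, mv, ← mult_inv φ A.mul_inv (hne k (j + k)), ← mult_adj hK hσq φ (A⁻¹).1, inv_pow, key,
      inv_inv]
  have h := card_classes_projective φ ρ hρ
    (fun g g' h => (isConj_GU_iff hK g g').2 (isConj_units_iff.2 h)) (guMk hσq (x • 1) (hsc x hx)) (by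
      ext z
      constructor
      · intro hz
        obtain ⟨c, hc⟩ := exists_scalar_of_mem_center_GU hK hz
        have h1 := (mem_GU_iff_adj hσq hσ _).1 z.2
        rw [hc, adj_smul, adj_one, smul_mul_smul_comm, mul_comm, one_mul] at h1
        obtain ⟨e, he⟩ := hgen c (by simpa using congrFun (congrFun h1 ⟨0, hn⟩) ⟨0, hn⟩)
        refine ⟨e, hρ ?_⟩
        simp only [zpow_natCast, map_pow]
        change (x • 1) ^ e = z.1.1
        rw [hc, _root_.smul_pow, he, one_pow]
      · refine fun hz => Subgroup.zpowers_le_of_mem (Subgroup.mem_center_iff.2 fun g => hρ ?_) hz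
        rw [map_mul, map_mul]
        change _ * (x • (1 : Matrix (Fin n) (Fin n) K)) = (x • (1 : Matrix (Fin n) (Fin n) K)) * _
        simp) x rfl
    (by
      rw [← orderOf_injective ρ hρ]
      change r ∣ orderOf (x • (1 : Matrix (Fin n) (Fin n) K))
      rw [← Algebra.algebraMap_eq_smul_one, show orderOf (algebraMap K (Matrix (Fin n) (Fin n) K) x) =
        orderOf x from orderOf_injective (algebraMap K (Matrix (Fin n) (Fin n) K)).toMonoidHom
          (algebraMap K _).injective _, hx']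
      exact hrq) ω hω ζ hζ
    (fun k m hm hk => by
      have hωk : (ω ^ k.val) ^ r = φ (x ^ k.val) := by rw [← pow_mul, mul_comm, pow_mul, hω, map_pow]
      obtain ⟨A, hA⟩ := exists_matrix_mult (ι := Fin n) φ
        (mul_rt_injective hζ (pow_ne_zero k.val hω0)) m hm fun j => ⟨j - k - k, by
          have h1 := key k (j - k)
          have h2 := key k (j - k - k)
          rw [sub_add_cancel] at h1 h2
          rw [hK, pow_two, pow_mul, h1, inv_pow, h2, inv_inv], by
          rw [← hk, sub_add_cancel, ← hk, sub_add_cancel]⟩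
      have h1 : mv φ ζ (ω ^ k.val) r A = m := funext hA
      have h2 := (sum_mv_iff φ hζ (pow_ne_zero k.val hω0) hωk A).1 (h1 ▸ hm)
      obtain ⟨u, rfl⟩ := isUnit_of_pow_eq_smul (pow_ne_zero k.val hx0) h2
      have h3 : mv φ ζ (ω ^ k.val) r (adj (Fin n) σ (u⁻¹ : GL (Fin n) K)) = m := by
        ext j; rw [hadj, h1, hk]
      obtain ⟨B, hB⟩ := (exists_GU_isConj_iff hσq hσ u).2 ((isConj_iff_mv φ hζ
        (pow_ne_zero k.val hω0) hωk h2 ((sum_mv_iff φ hζ (pow_ne_zero k.val hω0) hωk _).1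
          (h3 ▸ hm))).2 (h1.trans h3.symm))
      refine ⟨B, ?_⟩
      rw [← h1]
      exact funext fun j => (mult_of_isConj φ (isConj_units_iff.1 hB) _).symm)
    (fun k g j => by
      have h1 : adj (Fin n) σ (g.1⁻¹ : GL (Fin n) K) = ρ g := by
        have h2 := (mem_GU_iff_adj hσq hσ _).1 (g⁻¹).2
        exact (Units.mul_inv_eq_one.1 h2)
      conv_rhs => rw [← h1, hadj]
      rfl)
  simpa using h

end GU

end Cfsg.Agent.Lib.GL.ProjClass
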