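import Mathlib
import Cfsg.Agent.Lib.GL.Jordan3
import Cfsg.Agent.Lib.GL.AltConj

/-!
Simple summands of semisimple endomorphisms.
-/

set_option autoImplicit false

open Module Matrix Polynomial

namespace Cfsg.Agent.Lib.GL.SemiSimple

universe u v

variable {K : Type u} [Field K] {V : Type v} [AddCommGroup V] [Module K V]

theorem exists_field_summand {T : End K V} (hT : T.IsSemisimple) (U : Submodule K V)
    (hU : ∀ v ∈ U, T v ∈ U) (h0 : U ≠ ⊥) :
    ∃ (L : Type u) (_ : Field L) (_ : Algebra K L) (z : L) (W : Type v) (_ : AddCommGroup W)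
      (_ : Module K W) (T' : End K W) (e : V ≃ₗ[K] L × W),
      (∀ v, e (T v) = (z * (e v).1, T' (e v).2)) ∧ (∀ y, ∃ f : K[X], aeval z f = y) ∧
        ∀ y, e.symm (y, 0) ∈ U := by
  have : IsSemisimpleModule K[X] (AEval' T) := hT
  let N : Submodule K[X] (AEval' T) := AEval.mapSubmodule K V T ⟨U, hU⟩
  obtain h | ⟨S, h1, h2⟩ := IsSemisimpleModule.eq_bot_or_exists_simple_le N
  · refine absurd ((Submodule.eq_bot_iff _).2 fun v hv => ?_) h0
    have : AEval'.of T v ∈ N := by simpa [N] using hv
    simpa [h] using this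
  obtain ⟨S', h3⟩ := exists_isCompl S
  obtain ⟨I, h4, ⟨f⟩⟩ := isSimpleModule_iff_quot_maximal.1 h2
  let e := (S.prodEquivOfIsCompl S' h3).symm.trans (f.prodCongr (LinearEquiv.refl _ S'))
  refine ⟨K[X] ⧸ I, Ideal.Quotient.field I, inferInstance, Ideal.Quotient.mk I X, S', inferInstance,
    inferInstance, Sim.mulX K S', (AEval'.of T).trans (e.restrictScalars K), fun v => ?_,
    fun y => ?_, fun y => ?_⟩
  · change e (AEval'.of T (T v)) = (X : K[X]) • e (AEval'.of T v)
    rw [← map_smul, AEval'.X_smul_of]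
  · obtain ⟨y, rfl⟩ := Ideal.Quotient.mk_surjective y
    exact ⟨y, by rw [← Ideal.Quotient.mkₐ_eq_mk K, aeval_algHom_apply]; simp⟩
  · have : e.symm (y, 0) ∈ N := h1 (by simp [e])
    simpa [N] using this

theorem exists_commute_det [Finite K] [FiniteDimensional K V] [Nontrivial V] {T : End K V}
    (hT : T.IsSemisimple) (a : K) : ∃ c, Commute c T ∧ LinearMap.det c = a := by
  obtain ⟨L, _, _, z, W, _, _, T', e, h1, -⟩ := exists_field_summand hT ⊤ (by simp) top_ne_bot
  have : FiniteDimensional K (L × W) := e.finiteDimensional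
  have : FiniteDimensional K L := .of_surjective (LinearMap.fst K L W) Prod.fst_surjective
  have : FiniteDimensional K W := .of_surjective (LinearMap.snd K L W) Prod.snd_surjective
  have : Finite L := Module.finite_of_finite K
  obtain ⟨y, rfl⟩ := FiniteField.norm_surjective K L a
  refine ⟨e.symm.conj ((LinearMap.mul K L y).prodMap LinearMap.id), LinearMap.ext fun v =>
    e.injective ?_, ?_⟩
  · simp [h1, mul_left_comm]
  · rw [LinearEquiv.conj_apply, LinearMap.comp_assoc, LinearMap.det_conj, LinearMap.det_prodMap,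
      Algebra.norm_apply]
    simp

theorem isSemisimple_of_pow_eq_one {T : End K V} {n : ℕ} (hn : (n : K) ≠ 0) (hT : T ^ n = 1) :
    T.IsSemisimple :=
  End.isSemisimple_of_squarefree_aeval_eq_zero (separable_X_pow_sub_C 1 hn one_ne_zero).squarefree
    (by simp [hT])

end Cfsg.Agent.Lib.GL.SemiSimple
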