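import Mathlib
import Cfsg.Agent.Lib.GL.SemiSimple
import Cfsg.Agent.Lib.GL.Mult
import Cfsg.Agent.Lib.GL.AltConj
import Cfsg.Agent.Lib.PGroup.Basic

/-!
Derived length of linear `p`-groups in characteristic different from `p`.
-/

set_option autoImplicit false

open Module
open scoped commutatorElement

namespace Cfsg.Agent.Lib.GL.DerLen

open Cfsg.Agent.Lib.GL.SemiSimple Cfsg.Agent.Lib.PGroup Cfsg.Agent.Lib.GL.Mult
  Cfsg.Agent.Lib.GL.Alt Cfsg.Agent.Lib.GL.AltConj Cfsg.Agent.Lib.GL.Isom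

theorem map_derivedSeries_commutator {G : Type*} [Group G] (k : ℕ) :
    (derivedSeries (commutator G) k).map (commutator G).subtype = derivedSeries G (k + 1) := by
  induction k with
  | zero => rw [derivedSeries_zero, ← MonoidHom.range_eq_map, Subgroup.range_subtype, derivedSeries_one]
  | succ k ih => rw [derivedSeries_succ, Subgroup.map_commutator, ih, derivedSeries_succ G (k + 1)]

theorem exists_of_commutator_le {G : Type*} [Group G] {M : Subgroup G} (h : commutator G ≤ M) {k : ℕ}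
    {g : G} (hg : g ∈ derivedSeries G (k + 1)) : ∃ x ∈ derivedSeries M k, x.1 = g := by
  obtain ⟨x, hx, rfl⟩ := (map_derivedSeries_commutator k).ge hg
  exact ⟨_, map_derivedSeries_le_derivedSeries (Subgroup.inclusion h) k ⟨x, hx, rfl⟩, rfl⟩

universe u v

variable {K : Type*} [Field K] {V : Type v} [AddCommGroup V] [Module K V]

theorem sum_finrank_eigenspace_le [FiniteDimensional K V] (T : End K V) {J : Type*} [Fintype J]
    {e : J → K} (he : Function.Injective e) : ∑ j, finrank K (T.eigenspace (e j)) ≤ finrank K V := by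
  classical
  rw [← finrank_directSum]
  exact LinearMap.finrank_le_finrank_of_injective
    (T.eigenspaces_iSupIndep.comp he).dfinsupp_lsum_injective

/-- The restriction of a representation to an eigenspace of a commuting endomorphism. -/
def resEig {G : Type*} [Group G] (ρ : G →* End K V) {T : End K V} (h : ∀ g, Commute T (ρ g)) (a : K) :
    G →* End K (T.eigenspace a) where
  toFun g := (ρ g).restrict (End.mapsTo_genEigenspace_of_comm (h g) a 1)
  map_one' := LinearMap.ext fun v => Subtype.ext (by simp)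
  map_mul' g g' := LinearMap.ext fun v => Subtype.ext (LinearMap.congr_fun (map_mul ρ g g') v)

theorem exists_resEig_ne_one [IsAlgClosed K] [FiniteDimensional K V] {G : Type*} [Group G]
    (ρ : G →* End K V) {T : End K V} (h : ∀ g, Commute T (ρ g)) (hT : T.IsSemisimple) {g : G}
    (hg : ρ g ≠ 1) : ∃ a, resEig ρ h a g ≠ 1 := by
  by_contra! h1
  refine hg (LinearMap.ext fun v => ?_)
  exact (hT.iSup_eigenspace_eq_top.ge.trans (iSup_le fun a w hw => congrArg Subtype.val
    (LinearMap.congr_fun (h1 a) ⟨w, hw⟩) : _ ≤ LinearMap.eqLocus (ρ g) 1)) (Submodule.mem_top (x := v))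

theorem injective_pow {p : ℕ} [Fact p.Prime] {c : K} {n : ℕ} (h : c ^ p ^ n = 1) (h1 : c ≠ 1) :
    Function.Injective fun i : Fin p => c ^ i.1 := by
  obtain ⟨m, -, hm⟩ := (Nat.dvd_prime_pow Fact.out).1 (orderOf_dvd_of_pow_eq_one h)
  have : p ≤ orderOf c := hm ▸ Nat.le_self_pow (by rintro rfl; simp_all) p
  exact fun i j hij => Fin.ext (pow_injOn_Iio_orderOf (i.2.trans_le this) (j.2.trans_le this) hij)

theorem pow_le_finrank [IsAlgClosed K] {p : ℕ} [Fact p.Prime] (hp : (p : K) ≠ 0) (n : ℕ) :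
    ∀ (V : Type v) [AddCommGroup V] [Module K V] [FiniteDimensional K V], finrank K V = n →
      ∀ (G : Type u) [Group G] [Finite G], IsPGroup p G → ∀ (ρ : G →* End K V) (k : ℕ),
        ∀ g ∈ derivedSeries G k, ρ g ≠ 1 → p ^ k ≤ n := by
  induction n using Nat.strong_induction_on with | _ n ih => ?_
  rintro V _ _ _ rfl G _ _ hG ρ k g hg h1
  have : Nontrivial V := not_subsingleton_iff_nontrivial.1 fun _ => h1 (Subsingleton.elim _ _)
  rcases k with _ | k
  · exact finrank_pos
  have h0 : ∀ g, ρ g ≠ 0 := fun g => (Group.isUnit g).map ρ |>.ne_zero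
  let S := (Units.map (algebraMap K (End K V)).toMonoidHom).range.comap ρ.toHomUnits
  have hS : ∀ g, g ∈ S ↔ ∃ c : K, ρ g = c • 1 := fun g =>
    ⟨fun ⟨c, hc⟩ => ⟨c, (congrArg Units.val hc).symm⟩, fun ⟨c, hc⟩ =>
      ⟨Units.mk0 c (by rintro rfl; exact h0 g (by simpa using hc)), Units.ext hc.symm⟩⟩
  have : S.Normal := ⟨fun a ha b => (hS _).2 (((hS _).1 ha).imp fun c hc => by
    rw [map_mul, map_mul, hc, mul_smul_comm, smul_mul_assoc, mul_one, ← map_mul, mul_inv_cancel,
      map_one])⟩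
  obtain ⟨x, -, hx, -, h2⟩ := exists_central_mod hG (N := S) (M := ⊤) fun h => by
    obtain ⟨g, -, rfl⟩ := (map_derivedSeries_commutator k).ge hg
    refine h1 ((Subgroup.commutator_le (H₃ := ρ.ker)).2 (fun a _ b _ => ?_) g.2)
    obtain ⟨c, hc⟩ := (hS a).1 (h trivial)
    obtain ⟨d, hd⟩ := (hS a⁻¹).1 (h trivial)
    rw [MonoidHom.mem_ker, commutatorElement_def, mul_assoc, mul_assoc, map_mul, map_mul, map_mul,
      hd, smul_mul_assoc, mul_smul_comm, one_mul, ← map_mul, mul_inv_cancel, map_one, ← hd,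
      ← map_mul, mul_inv_cancel, map_one]
  choose c hc using fun g => (hS _).1 (h2 g)
  replace hc : ∀ g, ρ x * ρ g = c g • (ρ g * ρ x) := fun g => by
    rw [← one_mul (ρ g * ρ x), ← smul_mul_assoc, ← hc, ← map_mul, ← map_mul, ← map_mul,
      commutatorElement_def]
    group
  let χ : G →* K := ⟨⟨c, smul_left_injective K (h0 x) (by simpa using (hc 1).symm)⟩, fun a b =>
    smul_left_injective K (h0 (a * b * x)) (by
      beta_reduce
      rw [map_mul, ← hc, map_mul, ← mul_assoc, hc, smul_mul_assoc, mul_assoc, hc, mul_smul_comm,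
        smul_smul, mul_assoc])⟩
  obtain ⟨m, hm⟩ := hG x
  have h3 : (ρ x).IsSemisimple := isSemisimple_of_pow_eq_one (n := p ^ m) (by simp [hp])
    (by rw [← map_pow, hm, map_one])
  have h4 : ∀ a, finrank K ((ρ x).eigenspace a) < finrank K V := fun a =>
    Submodule.finrank_lt fun h => hx ((hS x).2 ⟨a, LinearMap.ext fun v =>
      End.mem_eigenspace_iff.1 (h ▸ Submodule.mem_top)⟩)
  by_cases h5 : ∀ g, c g = 1
  · obtain ⟨a, ha⟩ := exists_resEig_ne_one ρ (fun g => by simpa [h5, commute_iff_eq] using hc g) h3 h1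
    exact (ih _ (h4 a) _ rfl G hG _ _ g hg ha).trans (h4 a).le
  obtain ⟨y, hy⟩ := not_forall.1 h5
  obtain ⟨g, hg', rfl⟩ := exists_of_commutator_le
    (Abelianization.commutator_subset_ker χ.toHomUnits) hg
  obtain ⟨a, ha⟩ := exists_resEig_ne_one (ρ.comp χ.toHomUnits.ker.subtype) (fun g => by
    simpa [show c g.1 = 1 from congrArg Units.val g.2, commute_iff_eq] using hc g.1) h3 h1
  have h6 := ih _ (h4 a) _ rfl _ (hG.to_subgroup _) _ _ g hg' ha
  obtain ⟨v, hv⟩ := not_forall.1 fun h => ha (LinearMap.ext h)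
  have h7 : a ≠ 0 := by
    rintro rfl
    obtain rfl : v = 0 := Subtype.ext ((End.isUnit_iff _).1 ((Group.isUnit x).map ρ) |>.1
      (by simpa using End.mem_eigenspace_iff.1 v.2))
    simp at hv
  obtain ⟨l, hl⟩ := hG y
  refine le_trans ?_ (sum_finrank_eigenspace_le (ρ x) ((mul_left_injective₀ h7).comp
    (injective_pow (n := l) (by rw [← show χ y = c y from rfl, ← map_pow, hl, map_one]) hy)))
  refine le_of_eq_of_le (by simp [pow_succ']) (Finset.card_nsmul_le_sum _ _ (p ^ k) fun i _ => ?_)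
  refine h6.trans (LinearMap.finrank_le_finrank_of_injective (f := (ρ (y ^ i.1)).restrict fun w hw =>
    End.mem_eigenspace_iff.2 ?_) fun _ _ h => Subtype.ext
      (((End.isUnit_iff _).1 ((Group.isUnit _).map ρ)).1 (congrArg Subtype.val h)))
  rw [← End.mul_apply, hc, show c (y ^ i.1) = c y ^ i.1 from map_pow χ y i]
  simp [End.mem_eigenspace_iff.1 hw, smul_smul]

theorem mul_pow_le {F ι : Type*} [Field F] [Fintype F] [Fintype ι] [DecidableEq ι] {p : ℕ}
    [Fact p.Prime] (hp : (p : F) ≠ 0) {G : Type*} [Group G] [Finite G] (hG : IsPGroup p G)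
    (ρ : G →* Matrix ι ι F) (hρ : Function.Injective ρ) {k : ℕ} (h : derivedSeries G k ≠ ⊥) :
    orderOf (Fintype.card F : ZMod p) * p ^ k ≤ Fintype.card ι := by
  obtain ⟨z, h1, h2, h3⟩ := exists_central_orderOf_eq hG h
  let φ := algebraMap F (AlgebraicClosure F)
  let ρ' : G →* End _ _ := ((Matrix.toLinAlgEquiv' (R := AlgebraicClosure F)).toMonoidHom.comp
    φ.mapMatrix.toMonoidHom).comp ρ
  have hp' : (p : AlgebraicClosure F) ≠ 0 := by rwa [← map_natCast φ, map_ne_zero]
  have h4 : ρ' z ^ p = 1 := by rw [← map_pow, ← h3, pow_orderOf_eq_one, map_one]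
  obtain ⟨a, ha⟩ := exists_resEig_ne_one ρ' (fun g => (show Commute z g from
    (Subgroup.mem_center_iff.1 h2 g).symm).map ρ') (isSemisimple_of_pow_eq_one hp' h4) (g := z)
    fun h5 => (Fact.out : p.Prime).ne_one (h3.symm.trans (orderOf_eq_one_iff.2 (hρ
      (Matrix.map_injective φ.injective (Matrix.toLin'.injective (h5.trans (map_one ρ').symm))))))
  have h5 := pow_le_finrank hp' _ _ rfl G hG _ k z h1 ha
  obtain ⟨⟨v, hv⟩, h6⟩ := not_forall.1 fun h => ha (LinearMap.ext h)
  have h7 : a • v ≠ v := fun h => h6 (Subtype.ext ((End.mem_eigenspace_iff.1 hv).trans h))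
  have h8 : a ^ p = 1 := smul_left_injective _ (show v ≠ 0 by rintro rfl; simp at h7) (by
    have := End.HasEigenvector.pow_apply ⟨hv, by rintro rfl; simp at h7⟩ p
    simpa [h4] using this.symm)
  have h9 : orderOf a = p := orderOf_eq_prime h8 (by rintro rfl; simp at h7)
  obtain ⟨τ, hτ⟩ := exists_frob φ
  have h10 : ∀ b, mult φ (ρ z) b = finrank (AlgebraicClosure F) ((ρ' z).eigenspace b) :=
    fun b => by
    rw [End.eigenspace_def, mult, Sim.kdM, Sim.kdE, map_sub, Polynomial.aeval_X, Polynomial.aeval_C]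
    rfl
  refine le_trans ?_ ((sum_finrank_eigenspace_le (ρ' z) (J := Fin (orderOf (Fintype.card F : ZMod p)))
    (e := fun i => a ^ Fintype.card F ^ i.1) fun i j hij => Fin.ext (pow_injOn_Iio_orderOf i.2 j.2 ?_)).trans_eq
      (by simp))
  · refine le_of_eq_of_le (by simp) (Finset.card_nsmul_le_sum _ _ _ fun i _ => h5.trans_eq ?_)
    rw [← h10, ← h10]
    induction i.1 with
    | zero => simp
    | succ i ih => rw [pow_succ, pow_mul, ← hτ, mult_frob φ τ fun b => by
        rw [hτ, ← map_pow, FiniteField.pow_card], ih]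
  · simpa [h9, ← ZMod.natCast_eq_natCast_iff] using (isOfFinOrder_iff_pow_eq_one.2
      ⟨p, (Fact.out : p.Prime).pos, h8⟩).pow_eq_pow_iff_modEq.1 hij

theorem exists_mem_derivedSeries_wreath {D Q : Type*} [Group D] [CommGroup Q] [Nontrivial Q] {k : ℕ}
    {g : D} (hg : g ∈ derivedSeries D k) :
    ∃ w ∈ derivedSeries (D ≀ᵣ Q) (k + 1), w.right = 1 ∧ w.left 1 = g := by
  classical
  have h1 : ∀ w : commutator (D ≀ᵣ Q), w.1.right = 1 := fun w =>
    Abelianization.commutator_subset_ker RegularWreathProduct.rightHom w.2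
  let π : commutator (D ≀ᵣ Q) →* D := MonoidHom.mk' (fun w => w.1.left 1) fun a b => by simp [h1]
  obtain ⟨s, hs⟩ := exists_ne (1 : Q)
  obtain ⟨w, hw, rfl⟩ := derivedSeries_le_map_derivedSeries (f := π) (fun g =>
    ⟨⟨⁅⟨Pi.mulSingle 1 g, 1⟩, ⟨1, s⟩⁆, Subgroup.commutator_mem_commutator trivial trivial⟩, by
      simp [π, commutatorElement_def, hs]⟩) k hg
  exact ⟨w, (map_derivedSeries_commutator k).le ⟨w, hw, rfl⟩, h1 w, rfl⟩

/-- A `2`-group of isometries of an alternating space of dimension `d` of derived length `> k`. -/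
def Rep (F : Type u) [Field F] (d k : ℕ) : Prop :=
  ∃ (G : Type) (_ : Group G) (_ : Finite G) (V : Type u) (_ : AddCommGroup V) (_ : Module F V)
    (_ : FiniteDimensional F V) (B : LinearMap.BilinForm F V) (ρ : G →* End F V), IsPGroup 2 G ∧
    finrank F V = d ∧ B.IsAlt ∧ (∀ v, (∀ u, B u v = 0) → v = 0) ∧
    (∀ g u v, B (ρ g u) (ρ g v) = B u v) ∧ ∃ g ∈ derivedSeries G k, ρ g ≠ 1

variable {F : Type u} [Field F]

theorem Rep.wreath {d k : ℕ} (h : Rep F d k) : Rep F (2 * d) (k + 1) := by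
  obtain ⟨G, _, _, V, _, _, _, B, ρ, h1, rfl, h2, h3, h4, g, h5, h6⟩ := h
  have : Nontrivial ℤˣ := ⟨1, -1, by decide⟩
  obtain ⟨w, h7, h8, rfl⟩ := exists_mem_derivedSeries_wreath (Q := ℤˣ) h5
  obtain ⟨n, hn⟩ := IsPGroup.iff_card.1 h1
  refine ⟨G ≀ᵣ ℤˣ, inferInstance, inferInstance, ℤˣ → V, inferInstance, inferInstance, inferInstance,
    ∑ x, B.compl₁₂ (.proj x) (.proj x),
    ⟨⟨fun w => LinearMap.pi fun x => ρ (w.left x) ∘ₗ .proj (w.right⁻¹ * x), by ext; simp⟩,
      fun a b => by ext; simp [mul_assoc]⟩,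
    IsPGroup.of_card (n := n * 2 + 1) (by simp [RegularWreathProduct.card, hn, pow_succ, pow_mul]),
    by simp [finrank_pi_fintype], fun v => by simp [LinearMap.sum_apply, h2 _],
    fun v hv => funext fun x => h3 _ fun u => ?_, fun g u v => ?_, w, h7,
    fun h => h6 (LinearMap.ext fun v => ?_)⟩
  · have := hv (Pi.single x u)
    rcases Int.units_eq_one_or x with rfl | rfl <;> simpa using this
  · simpa [LinearMap.sum_apply, h4] using
      Equiv.sum_comp (Equiv.mulLeft g.right⁻¹) fun x => B (u x) (v x)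
  · simpa [h8] using congrFun (LinearMap.congr_fun h fun _ => v) 1

theorem exists_hom_Q8 {R : Type*} [Monoid R] {A X : R} (h1 : A ^ 4 = 1) (h2 : X * X = A ^ 2)
    (h3 : A * X * A = X) (P : Submonoid R) (hA : A ∈ P) (hX : X ∈ P) :
    ∃ f : QuaternionGroup 2 →* R, f (.a 2) = A ^ 2 ∧ ∀ g, f g ∈ P := by
  let e : ZMod (2 * 2) → R := fun i => A ^ i.val
  have h4 : ∀ i j, e (i + j) = e i * e j := fun i j => by
    simp only [e, ZMod.val_add, ← pow_add]; exact (pow_eq_pow_mod _ h1).symm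
  have h5 : ∀ n, A ^ n * X * A ^ n = X := fun n => by
    induction n with
    | zero => simp
    | succ n ih =>
      nth_rw 1 [pow_succ]
      rw [pow_succ', mul_assoc _ A, mul_assoc, ← mul_assoc _ A, h3, ← mul_assoc, ih]
  have h6 : ∀ i j, e i * (X * e j) = X * e (j - i) := fun i j => by
    rw [← sub_add_cancel j i, add_comm, h4, ← mul_assoc, ← mul_assoc, h5, add_sub_cancel_left]
  refine ⟨⟨⟨fun g => match g with | .a i => e i | .xa i => X * e i, pow_zero A⟩, ?_⟩, rfl, ?_⟩
  · rintro (i | i) (j | j)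
    exacts [h4 i j, (h6 i j).symm, (congrArg _ (h4 i j)).trans (mul_assoc _ _ _).symm, by
      simp only [QuaternionGroup.xa_mul_xa]
      rw [mul_assoc, h6, ← mul_assoc, h2, add_sub_assoc, h4]; rfl]
  · rintro (i | i)
    exacts [pow_mem hA _, mul_mem hX (pow_mem hA _)]

theorem rep_two [Finite F] (h2 : (2 : F) ≠ 0) : Rep F 2 1 := by
  obtain ⟨p, _⟩ := CharP.exists F
  have : NeZero p := ⟨CharP.char_ne_zero_of_finite F p⟩
  obtain ⟨a, b, hab⟩ := CharP.sq_add_sq F p (-1)
  have h1 : (a : F) ^ 2 + b ^ 2 = -1 := by simpa using hab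
  obtain ⟨f, h3, h4⟩ := exists_hom_Q8 (A := (!![0, -1; 1, 0] : Matrix (Fin 2) (Fin 2) F))
    (X := !![a, b; b, -a]) (by simp [pow_succ, Matrix.one_fin_two])
    (by simp [pow_succ, Matrix.one_fin_two, mul_comm, ← h1, add_comm]) (by simp)
    (MonoidHom.mker Matrix.detMonoidHom) (by simp) (by simp; linear_combination -h1)
  refine ⟨QuaternionGroup 2, inferInstance, inferInstance, Fin 2 → F, inferInstance, inferInstance,
    inferInstance, Matrix.toBilin' !![0, 1; -1, 0], Matrix.toLinAlgEquiv'.toMonoidHom.comp f,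
    IsPGroup.of_card (n := 3) (by simp [QuaternionGroup.card]), by simp,
    fun v => by simp [Matrix.toBilin'_apply, mul_comm], fun v hv => ?_, fun g u v => ?_,
    ⁅.a 1, .xa 0⁆, Subgroup.commutator_mem_commutator trivial trivial, fun h => h2 ?_⟩
  · ext i
    fin_cases i
    · simpa [Matrix.toBilin'_apply] using hv ![0, 1]
    · simpa [Matrix.toBilin'_apply] using hv ![1, 0]
  · have := h4 g
    simp [Matrix.toBilin'_apply, Matrix.mulVec, dotProduct, Matrix.det_fin_two] at this ⊢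
    linear_combination (u 0 * v 1 - u 1 * v 0) * this
  · have := congrFun (LinearMap.congr_fun h ![1, 0]) 0
    rw [show ⁅(.a 1 : QuaternionGroup 2), (.xa 0 : QuaternionGroup 2)⁆ = .a 2 by decide] at this
    simp [h3, pow_succ] at this
    linear_combination -this

theorem rep_pow [Finite F] (h2 : (2 : F) ≠ 0) (k : ℕ) : Rep F (2 ^ (k + 1)) (k + 1) := by
  induction k with
  | zero => exact rep_two h2
  | succ k ih => exact pow_succ' 2 (k + 1) ▸ ih.wreath

theorem Rep.exists_hom {d k n : ℕ} (h : Rep F d k) (hn : d ≤ 2 * n) :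
    ∃ (G : Type) (_ : Group G) (φ : G →* Matrix.symplecticGroup (Fin n) F), IsPGroup 2 G ∧
      ∃ g ∈ derivedSeries G k, φ g ≠ 1 := by
  obtain ⟨G, _, _, V, _, _, _, B, ρ, h1, rfl, h2, h3, h4, g, h5, h6⟩ := h
  obtain ⟨m, hm⟩ := even_finrank h2 (nondegenerate_of_isAlt h2 h3)
  let B' := B.compl₁₂ (.fst F _ _) (.fst F _ _) + (sympBilin (n - m) F).compl₁₂ (.snd F _ _) (.snd F V _)
  have h7 : LinearMap.IsAlt B' := fun v => by simp [B', h2 _, sympBilin_isAlt _ _]
  obtain ⟨e, he⟩ := exists_equiv_sympForm_of_finrank (m := n) h7 (nondegenerate_of_isAlt h7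
    fun v hv => Prod.ext (h3 _ fun u => by simpa [B'] using hv (u, 0))
      ((sympBilin_nondegenerate _).2 _ fun u => by simpa [B'] using hv (0, u))) (by simp; omega)
  let ρ' : G →* End F (V × (Fin (n - m) ⊕ Fin (n - m) → F)) :=
    ⟨⟨fun g => (ρ g).prodMap 1, by simp⟩, fun a b => by simp [LinearMap.prodMap_mul]⟩
  refine ⟨G, inferInstance, MonoidHom.codRestrict ((matOf e).toRingEquiv.toMonoidHom.comp ρ') _
    fun g => (matOf_mem_symplecticGroup_iff e he _).2 fun u v => by simp [B', ρ', h4],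
    h1, g, h5, fun h => h6 (LinearMap.ext fun v => ?_)⟩
  exact congrArg Prod.fst (LinearMap.congr_fun ((matOf e).injective ((congrArg Subtype.val h).trans
    (map_one _).symm)) (v, 0))

end Cfsg.Agent.Lib.GL.DerLen
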