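import Mathlib
import Cfsg.Agent.Lib.GL.AltConj
import Cfsg.Agent.Lib.Forms.QuadMatrix

/-!
Isometry groups of bilinear forms; symmetric bilinear forms in characteristic two.
-/

set_option autoImplicit false

open Module Matrix

namespace Cfsg.Agent.Lib.GL.SymTwo

open Cfsg.Agent.Lib.GL.Alt Cfsg.Agent.Lib.Forms Cfsg.Agent.Lib.GL.AltConj Cfsg.Agent.Lib.GL.Count

theorem card_preimage_coset {G X : Type*} [Group G] (H : Subgroup G) (f : G → X)
    (hf : ∀ g g', f g = f g' ↔ g⁻¹ * g' ∈ H) (A : X → Prop) (hA : ∀ y, A y → ∃ g, f g = y) :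
    Nat.card {g // A (f g)} = Nat.card {y // A y} * Nat.card H := by
  refine card_eq_mul_of_fibers (fun g => ⟨f g.1, g.2⟩) fun ⟨y, hy⟩ => ?_
  obtain ⟨g, rfl⟩ := hA y hy
  exact ⟨{ toFun := fun x => ⟨g⁻¹ * x.1.1, (hf _ _).1 (congrArg Subtype.val x.2).symm⟩
           invFun := fun h => ⟨⟨g * h.1, by rwa [← (hf g (g * h.1)).2 (by simp)]⟩,
             Subtype.ext ((hf _ _).2 (by simp))⟩
           left_inv := fun x => by simp
           right_inv := fun h => by simp }⟩

theorem card_preimage_mul_card {G X : Type*} [Group G] (H : Subgroup G) (f : G → X)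
    (hf : ∀ g g', f g = f g' ↔ g⁻¹ * g' ∈ H) (A O : X → Prop) (hO : ∀ y, O y ↔ ∃ g, f g = y)
    (hA : ∀ y, A y → O y) :
    Nat.card {g // A (f g)} * Nat.card {y // O y} = Nat.card G * Nat.card {y // A y} := by
  rw [card_preimage_coset H f hf A fun y hy => (hO y).1 (hA y hy),
    ← Nat.card_congr (Equiv.subtypeUnivEquiv fun g => (hO (f g)).2 ⟨g, rfl⟩),
    card_preimage_coset H f hf O fun y => (hO y).1]
  ring

variable {F : Type*} [Field F] {V : Type*} [AddCommGroup V] [Module F V]
  {W : Type*} [AddCommGroup W] [Module F W]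

/-- The isometry group of a bilinear form. -/
def IsoG (B : LinearMap.BilinForm F V) : Subgroup (V ≃ₗ[F] V) where
  carrier := {g | ∀ u v, B (g u) (g v) = B u v}
  mul_mem' {a b} ha hb u v := by rw [LinearEquiv.mul_apply, LinearEquiv.mul_apply, ha, hb]
  one_mem' _ _ := rfl
  inv_mem' {a} ha u v := by rw [← ha]; simp

variable {B : LinearMap.BilinForm F V} {B' : LinearMap.BilinForm F W}

@[simp] theorem IsoG.map_B (g : IsoG B) (u v : V) : B (g.1 u) (g.1 v) = B u v := g.2 u v

theorem IsoG.ext' {g h : IsoG B} (H : ∀ v, g.1 v = h.1 v) : g = h := Subtype.ext (LinearEquiv.ext H)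

theorem IsoG.mul_apply (g h : IsoG B) (v : V) : (g * h).1 v = g.1 (h.1 v) := rfl

@[simp] theorem IsoG.inv_apply_apply (g : IsoG B) (v : V) : (g⁻¹).1 (g.1 v) = v :=
  g.1.symm_apply_apply v

@[simp] theorem IsoG.apply_inv_apply (g : IsoG B) (v : V) : g.1 ((g⁻¹).1 v) = v :=
  g.1.apply_symm_apply v

theorem IsoG.inv_mul_apply_eq (g g' : IsoG B) (v : V) : (g⁻¹ * g').1 v = v ↔ g.1 v = g'.1 v :=
  g.1.symm_apply_eq.trans eq_comm

instance finite_linearEquiv [Finite V] : Finite (V ≃ₗ[F] V) :=
  Finite.of_injective _ DFunLike.coe_injective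

theorem card_IsoG_congr (e : V ≃ₗ[F] W) (h : ∀ u v, B' (e u) (e v) = B u v) :
    Nat.card (IsoG B) = Nat.card (IsoG B') :=
  Nat.card_congr
    { toFun := fun g => ⟨e.symm.trans (g.1.trans e), fun u v => by simp [h, ← h (e.symm u)]⟩
      invFun := fun g => ⟨e.trans (g.1.trans e.symm), fun u v => by simp [← h]⟩
      left_inv := fun g => IsoG.ext' fun v => by simp
      right_inv := fun g => IsoG.ext' fun v => by simp }

/-- The matrix symplectic group is isomorphic to the abstract one. -/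
noncomputable def toSp (m : ℕ) (F : Type*) [Field F] :
    Matrix.symplecticGroup (Fin m) F ≃* IsoG (sympBilin m F) where
  toFun g := ⟨equivOfGL ((Submonoid.subtype _).toHomUnits g), fun u v => by
    simp only [sympBilin_apply]; exact (mem_symplecticGroup_iff_sympForm _).1 g.2 u v⟩
  invFun h := ⟨glOfEquiv h.1, (mem_symplecticGroup_iff_sympForm _).2 fun u v => by
    simp [← sympBilin_apply]⟩
  left_inv g := Subtype.ext (matrix_ext_mulVec fun v => by simp)
  right_inv h := IsoG.ext' fun v => by simp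
  map_mul' g h := IsoG.ext' fun v => by simp [IsoG.mul_apply]

@[simp] theorem toSp_apply {m : ℕ} (g : Matrix.symplecticGroup (Fin m) F) (v : Fin m ⊕ Fin m → F) :
    (toSp m F g).1 v = g.1 *ᵥ v := rfl

variable [FiniteDimensional F V] [FiniteDimensional F W]

theorem card_IsoG_alt [Fintype F] (hA : B.IsAlt) (hB : B.Nondegenerate) {m : ℕ}
    (hm : finrank F V = 2 * m) : Nat.card (IsoG B) = spOrder (Fintype.card F) m := by
  obtain ⟨e, he⟩ := exists_equiv_sympForm_of_finrank hA hB hm
  rw [card_IsoG_congr (B' := sympBilin m F) e fun u v => by rw [he, sympBilin_apply],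
    ← Nat.card_congr (toSp m F).toEquiv, card_symplecticGroup]

theorem witt_IsoG (hA : B.IsAlt) (hB : B.Nondegenerate) {ι : Type*} [Finite ι] {u u' : ι → V}
    (hu : LinearIndependent F u) (hu' : LinearIndependent F u')
    (h : ∀ i j, B (u i) (u j) = B (u' i) (u' j)) : ∃ g : IsoG B, ∀ i, g.1 (u i) = u' i := by
  obtain ⟨g, h1, h2⟩ := (isWittForm_alt B hB hA).witt_family u u' hu hu' h fun _ => rfl
  exact ⟨⟨g, h1.1⟩, h2⟩

theorem witt_IsoG_one (hA : B.IsAlt) (hB : B.Nondegenerate) {u u' : V} (hu : u ≠ 0) (hu' : u' ≠ 0) :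
    ∃ g : IsoG B, g.1 u = u' := by
  obtain ⟨g, h1, h2⟩ := (isWittForm_alt B hB hA).witt_one hu hu' rfl
  exact ⟨⟨g, h1.1⟩, h2⟩

theorem card_ne_zero [Fintype F] : Nat.card {u : V // u ≠ 0} = Fintype.card F ^ finrank F V - 1 := by
  classical
  have : Finite V := Module.finite_of_finite F
  let : Fintype V := Fintype.ofFinite V
  rw [Nat.card_eq_fintype_card, Fintype.card_subtype_compl, Fintype.card_subtype_eq,
    Module.card_eq_pow_finrank (K := F)]

theorem card_stab_alt [Fintype F] (hA : B.IsAlt) (hB : B.Nondegenerate) {m : ℕ}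
    (hm : finrank F V = 2 * (m + 1)) {z : V} (hz : z ≠ 0) :
    Nat.card {g : IsoG B // g.1 z = z} = Fintype.card F ^ (2 * m + 1) * spOrder (Fintype.card F) m := by
  have h := card_preimage_mul_card (MulAction.stabilizer (IsoG B) z) (fun g => g.1 z)
    (fun g g' => (IsoG.inv_mul_apply_eq g g' z).symm) (· = z) (· ≠ 0)
    (fun y => ⟨fun hy => witt_IsoG_one hA hB hz hy, by rintro ⟨g, rfl⟩; simpa using hz⟩)
    (fun y hy => hy ▸ hz)
  rw [card_ne_zero (F := F), card_IsoG_alt hA hB hm, spOrder_succ, Nat.card_unique (α := {y // y = z}), mul_one, hm,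
    mul_assoc, mul_comm] at h
  refine Nat.eq_of_mul_eq_mul_left ?_ h
  have := Nat.one_lt_pow (n := 2 * (m + 1)) (by omega) (Fintype.one_lt_card (α := F))
  omega

section Two

variable [Finite F] [CharP F 2]

/-- A non-degenerate symmetric form with characteristic vector `z`. -/
structure Sym (B : LinearMap.BilinForm F V) (z : V) : Prop where
  symm : ∀ u v, B u v = B v u
  nondeg : ∀ u, (∀ v, B u v = 0) → u = 0
  sq : ∀ u, B u u = B u z ^ 2

theorem exists_sym (hs : ∀ u v, B u v = B v u) (hn : ∀ u, (∀ v, B u v = 0) → u = 0) :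
    ∃ z, Sym B z := by
  have h2 : (2 : F) = 0 := CharTwo.two_eq_zero
  let r := (frobeniusEquiv F 2).symm
  have hr : ∀ a, r a ^ 2 = a := fun a => (frobeniusEquiv F 2).apply_symm_apply a
  let l : V →ₗ[F] F :=
    { toFun := fun v => r (B v v)
      map_add' := fun u v => by
        rw [← map_add r]
        congr 1
        simp only [map_add, LinearMap.add_apply, hs v u]
        linear_combination B u v * h2
      map_smul' := fun c v => by
        apply (frobeniusEquiv F 2).injective
        simp only [frobeniusEquiv_def, smul_eq_mul, RingHom.id_apply, mul_pow, hr, map_smul,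
          LinearMap.smul_apply]
        ring }
  obtain ⟨z, hz⟩ := (B.toDual ⟨hn, fun v hv => hn v fun u => by rw [hs, hv]⟩).surjective l
  exact ⟨z, hs, hn, fun u => by
    rw [hs u z, show B z u = l u from LinearMap.congr_fun hz u]; exact (hr _).symm⟩

/-- The alternating form attached to a symmetric form. -/
def altOf (B : LinearMap.BilinForm F V) (z : V) : LinearMap.BilinForm F V :=
  B + LinearMap.BilinForm.linMulLin (B.flip z) (B.flip z)

variable {z : V} {z' : W}

omit [FiniteDimensional F V] [Finite F] [CharP F 2] in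
theorem altOf_apply (u v : V) : altOf B z u v = B u v + B u z * B v z := rfl

omit [FiniteDimensional F V] [FiniteDimensional F W] [Finite F] in
theorem Sym.map_z (h : Sym B z) (h' : Sym B' z') (g : V ≃ₗ[F] W)
    (hg : ∀ u v, B' (g u) (g v) = B u v) : g z = z' := by
  refine sub_eq_zero.1 (h'.nondeg _ fun v => ?_)
  obtain ⟨v, rfl⟩ := g.surjective v
  have := h'.sq (g v)
  rw [hg, h.sq, ← hg] at this
  rw [map_sub, LinearMap.sub_apply, h'.symm, h'.symm z',
    (frobenius F 2).injective (show _ ^ 2 = _ ^ 2 from this), sub_self]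

omit [FiniteDimensional F V] [Finite F] [CharP F 2] in
theorem Sym.zero_or_one (h : Sym B z) : B z z = 0 ∨ B z z = 1 := by
  have : B z z * (B z z - 1) = 0 := by linear_combination -h.sq z
  simpa [sub_eq_zero] using this

omit [FiniteDimensional F V] [Finite F] in
theorem Sym.isAlt (h : Sym B z) : (altOf B z).IsAlt := fun u => by
  rw [altOf_apply, h.sq u, ← _root_.sq, CharTwo.add_self_eq_zero]

omit [FiniteDimensional F V] [Finite F] in
theorem Sym.nondeg_altOf (h : Sym B z) (hz : B z z = 0) : (altOf B z).Nondegenerate :=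
  nondegenerate_of_isAlt h.isAlt fun v hv => by
    have h1 : v + B v z • z = 0 := h.nondeg _ fun u => by
      simpa [altOf_apply, h.symm u, mul_comm] using hv u
    have h2 := congrArg (B · z) h1
    simp only [map_add, map_smul, LinearMap.add_apply, LinearMap.smul_apply, hz, smul_zero,
      add_zero, map_zero, LinearMap.zero_apply] at h2
    simpa [h2] using h1

omit [FiniteDimensional F V] [FiniteDimensional F W] [Finite F] in
theorem Sym.isom_iff (h : Sym B z) (h' : Sym B' z') (hz : B z z = 0) (hz' : B' z' z' = 0)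
    (g : V ≃ₗ[F] W) : (∀ u v, B' (g u) (g v) = B u v) ↔
      (∀ u v, altOf B' z' (g u) (g v) = altOf B z u v) ∧ g z = z' := by
  refine ⟨fun hg => ⟨fun u v => by simp only [altOf_apply, ← h.map_z h' g hg, hg], h.map_z h' g hg⟩,
    fun ⟨h1, h2⟩ u v => ?_⟩
  have h3 : ∀ u, B' (g u) z' = B u z := fun u => by
    simpa [altOf_apply, h2, hz, hz'] using h1 u z
  simpa [altOf_apply, h3] using h1 u v

omit [Finite F] in
theorem Sym.exists_decomp (h : Sym B z) (hz : B z z = 1) :
    ∃ (U : Submodule F V) (e : V ≃ₗ[F] U × F), (B.restrict U).IsAlt ∧ (B.restrict U).Nondegenerate ∧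
      ∀ u v, B u v = B (e u).1 (e v).1 + (e u).2 * (e v).2 := by
  have h1 : (B.restrict (LinearMap.ker (B.flip z))).IsAlt := fun u => by
    have : B u z = 0 := u.2
    simp [h.sq, this]
  let e : V ≃ₗ[F] LinearMap.ker (B.flip z) × F :=
    { toFun := fun u => (⟨u - B u z • z, by simp [hz]⟩, B u z)
      map_add' := fun u v => by ext <;> simp [add_smul]; abel
      map_smul' := fun c u => by ext <;> simp [smul_sub, smul_smul]
      invFun := fun x => x.1 + x.2 • z
      left_inv := fun u => by simp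
      right_inv := fun x => by
        have : B x.1 z = 0 := x.1.2
        ext <;> simp [hz, this] }
  refine ⟨_, e, h1, nondegenerate_of_isAlt h1 fun v hv => Subtype.ext (h.nondeg _ fun u => ?_),
    fun u v => ?_⟩
  · have h2 : B z v = 0 := (h.symm _ _).trans v.2
    simpa [e, h2, h.symm u] using hv (e u).1
  · simp [e, hz, h.symm z]
    ring

omit [Finite F] in
theorem Sym.odd_iff (h : Sym B z) : Odd (finrank F V) ↔ B z z = 1 := by
  constructor
  · exact fun ho => h.zero_or_one.resolve_left fun hz =>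
      Nat.not_even_iff_odd.2 ho (even_finrank h.isAlt (h.nondeg_altOf hz))
  · intro hz
    obtain ⟨U, e, h1, h2, -⟩ := h.exists_decomp hz
    rw [e.finrank_eq, finrank_prod, finrank_self]
    exact (even_finrank h1 h2).add_one

omit [Finite F] in
theorem Sym.eq_zero_of_even (h : Sym B z) (he : Even (finrank F V)) : B z z = 0 :=
  h.zero_or_one.resolve_right fun hz => Nat.not_even_iff_odd.2 (h.odd_iff.2 hz) he

omit [Finite F] in
theorem Sym.exists_isometry (h : Sym B z) (h' : Sym B' z') (hd : finrank F V = finrank F W)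
    (hz : z = 0 ↔ z' = 0) : ∃ e : V ≃ₗ[F] W, ∀ u v, B' (e u) (e v) = B u v := by
  rcases Nat.even_or_odd (finrank F V) with he | ho
  · have h1 := h.eq_zero_of_even he
    have h2 := h'.eq_zero_of_even (hd ▸ he)
    obtain ⟨e, h3⟩ := Alt.exists_isometry h.isAlt (h.nondeg_altOf h1) h'.isAlt (h'.nondeg_altOf h2) hd
    by_cases h0 : z = 0
    · exact ⟨e, (h.isom_iff h' h1 h2 e).2 ⟨h3, by rw [h0, hz.1 h0, map_zero]⟩⟩
    obtain ⟨g, hg⟩ := witt_IsoG_one h'.isAlt (h'.nondeg_altOf h2) (e.map_ne_zero_iff.2 h0)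
      (mt hz.2 h0)
    exact ⟨e.trans g.1, (h.isom_iff h' h1 h2 _).2 ⟨fun u v => by simp [h3], hg⟩⟩
  · obtain ⟨U, e, h1, h2, h3⟩ := h.exists_decomp (h.odd_iff.1 ho)
    obtain ⟨U', e', h1', h2', h3'⟩ := h'.exists_decomp (h'.odd_iff.1 (hd ▸ ho))
    obtain ⟨g, hg⟩ := Alt.exists_isometry h1 h2 h1' h2' (by
      simpa [e.finrank_eq, e'.finrank_eq] using hd)
    refine ⟨e.trans ((g.prodCongr (LinearEquiv.refl F F)).trans e'.symm), fun u v => ?_⟩
    rw [h3, h3']
    simpa using hg _ _

end Two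

section Card

variable [Fintype F] [CharP F 2] {z : V}

theorem Sym.card_IsoG_odd (h : Sym B z) {k : ℕ} (hk : finrank F V = 2 * k + 1) :
    Nat.card (IsoG B) = spOrder (Fintype.card F) k := by
  have hz := h.odd_iff.1 ⟨k, hk⟩
  obtain ⟨U, e, h1, h2, h3⟩ := h.exists_decomp hz
  rw [← card_IsoG_alt h1 h2 (by simpa [e.finrank_eq] using hk)]
  refine (Nat.card_congr (Equiv.ofBijective (fun g : IsoG (B.restrict U) =>
    (⟨e.trans ((g.1.prodCongr (LinearEquiv.refl F F)).trans e.symm), fun u v => by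
      rw [h3, h3 u]; simpa using g.2 _ _⟩ : IsoG B)) ⟨fun g g' hg => IsoG.ext' fun v => ?_, ?_⟩)).symm
  · simpa using congrArg (fun x : IsoG B => x.1 (e.symm (v, 0))) hg
  · intro g
    have h4 : e.symm (0, 1) = z := by
      refine sub_eq_zero.1 (h.nondeg _ fun v => ?_)
      have := h.sq v
      rw [h3, show B (e v).1 (e v).1 = 0 from h1 _, zero_add, ← _root_.sq] at this
      have h9 : (e v).2 = B v z := (frobenius F 2).injective this
      rw [map_sub, LinearMap.sub_apply, h3, h.symm z, ← h9]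
      simp
    have h5 : ∀ v, (e v).2 = B v z := fun v => by rw [← h4, h3]; simp
    have h6 := h.map_z h g.1 g.2
    have h7 : ∀ u : U, (e (g.1 (e.symm (u, 0)))).2 = 0 := fun u => by
      rw [h5, ← h6, g.2, ← h5]; simp
    let g₁ : U →ₗ[F] U := LinearMap.fst F U F ∘ₗ e.toLinearMap ∘ₗ g.1.toLinearMap ∘ₗ
      e.symm.toLinearMap ∘ₗ LinearMap.inl F U F
    have h8 : ∀ u v, B.restrict U (g₁ u) (g₁ v) = B.restrict U u v := fun u v => by
      have := g.2 (e.symm (u, 0)) (e.symm (v, 0))
      rw [h3, h3 (e.symm _), h7] at this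
      simpa [g₁] using this
    refine ⟨⟨LinearEquiv.ofInjectiveEndo g₁ (injective_of_isometry h2 h8), h8⟩,
      IsoG.ext' fun v => ?_⟩
    obtain ⟨⟨u, a⟩, rfl⟩ := e.symm.surjective v
    have h9 : e.symm (u, a) = e.symm (u, 0) + a • z := by rw [← h4, ← map_smul, ← map_add]; simp
    conv_rhs => rw [h9, map_add, map_smul, h6, ← h4, ← e.symm_apply_apply (g.1 _), ← map_smul, ← map_add]
    simp only [LinearEquiv.trans_apply, e.apply_symm_apply]
    congr 1
    ext <;> simp [g₁, h7]

theorem Sym.card_IsoG_even (h : Sym B z) {k : ℕ} (hk : finrank F V = 2 * (k + 1)) (hz : z ≠ 0) :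
    Nat.card (IsoG B) = Fintype.card F ^ (2 * k + 1) * spOrder (Fintype.card F) k := by
  have h1 := h.eq_zero_of_even ⟨k + 1, by omega⟩
  rw [← card_stab_alt h.isAlt (h.nondeg_altOf h1) hk hz]
  exact Nat.card_congr
    { toFun := fun g => ⟨⟨g.1, ((h.isom_iff h h1 h1 _).1 g.2).1⟩, ((h.isom_iff h h1 h1 _).1 g.2).2⟩
      invFun := fun g => ⟨g.1.1, (h.isom_iff h h1 h1 _).2 ⟨g.1.2, g.2⟩⟩
      left_inv := fun _ => rfl
      right_inv := fun _ => rfl }

end Card

end Cfsg.Agent.Lib.GL.SymTwo
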