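import Mathlib
import Cfsg.Agent.Lib.GL.SymTwo

/-!
Involutions of symplectic groups in characteristic two.
-/

set_option autoImplicit false

open Module Matrix

namespace Cfsg.Agent.Lib.GL.SymTwo

open Cfsg.Agent.Lib.GL.Alt Cfsg.Agent.Lib.Forms Cfsg.Agent.Lib.GL.AltConj Cfsg.Agent.Lib.GL.Count

variable {F : Type*} [Field F] {V : Type*} [AddCommGroup V] [Module F V]
  {M : Type*} [AddCommGroup M] [Module F M] {M' : Type*} [AddCommGroup M'] [Module F M']

/-- The description of an involution `t` by a totally isotropic subspace with a symmetric form. -/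
structure Data (B : LinearMap.BilinForm F V) (t : V → V) (i : M →ₗ[F] V) (π : V →ₗ[F] M)
    (c : LinearMap.BilinForm F M) (z : M) : Prop where
  inj : Function.Injective i
  surj : Function.Surjective π
  eq : ∀ x, t x = x + i (π x)
  adj : ∀ x y, c (π x) y = B x (i y)
  iso : ∀ y y', B (i y) (i y') = 0
  sym : Sym c z

variable {B : LinearMap.BilinForm F V} {t t' : V → V} {i : M →ₗ[F] V} {π : V →ₗ[F] M}
  {c : LinearMap.BilinForm F M} {z : M} {i' : M' →ₗ[F] V} {π' : V →ₗ[F] M'}
  {c' : LinearMap.BilinForm F M'} {z' : M'}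

theorem Data.pi_i (h : Data B t i π c z) (y : M) : π (i y) = 0 :=
  h.sym.nondeg _ fun y' => by rw [h.adj, h.iso]

theorem Data.t_i (h : Data B t i π c z) (y : M) : t (i y) = i y := by simp [h.eq, h.pi_i]

theorem Data.fix_iff (h : Data B t i π c z) (x : V) : t x = x ↔ ∀ y, B x (i y) = 0 := by
  rw [h.eq, add_eq_left, map_eq_zero_iff i h.inj]
  exact ⟨fun h1 y => by simp [← h.adj, h1], fun h1 => h.sym.nondeg _ fun y => by rw [h.adj, h1]⟩

theorem Data.apply_t (h : Data B t i π c z) (hA : B.IsAlt) (x : V) : B x (t x) = c (π x) (π x) := by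
  rw [h.eq, map_add, hA x, zero_add, h.adj]

theorem Sym.eq_zero_iff (h : Sym c z) : z = 0 ↔ ∀ y, c y y = 0 :=
  ⟨fun h1 y => by simp [h.sq, h1], fun h1 => h.nondeg _ fun y => by
    rw [h.symm]; exact pow_eq_zero_iff two_ne_zero |>.1 ((h.sq y).symm.trans (h1 y))⟩

theorem Data.alt_iff (h : Data B t i π c z) (hA : B.IsAlt) : (∀ x, B x (t x) = 0) ↔ z = 0 := by
  rw [h.sym.eq_zero_iff, h.surj.forall]
  simp only [h.apply_t hA]

theorem Data.conj (h : Data B t i π c z) (h' : Data B t' i' π' c' z') (e : M ≃ₗ[F] M')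
    (he : ∀ u v, c' (e u) (e v) = c u v) (g : V ≃ₗ[F] V) (hg : ∀ u v, B (g u) (g v) = B u v)
    (hi : ∀ y, g (i y) = i' (e y)) (x : V) : g (t x) = t' (g x) := by
  rw [h.eq, h'.eq, map_add, hi]
  congr 2
  refine sub_eq_zero.1 (h'.sym.nondeg _ fun y => ?_)
  obtain ⟨y, rfl⟩ := e.surjective y
  rw [map_sub, LinearMap.sub_apply, he, h'.adj, ← hi, hg, h.adj, sub_self]

theorem Data.comm_iff [FiniteDimensional F M] (h : Data B t i π c z) (g : IsoG B) :
    (∀ x, g.1 (t x) = t (g.1 x)) ↔ ∃ φ : IsoG c, ∀ y, g.1 (i y) = i (φ.1 y) := by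
  refine ⟨fun hg => ?_, fun ⟨φ, hφ⟩ => h.conj h φ.1 φ.2 g.1 g.2 hφ⟩
  obtain ⟨σ, hσ⟩ := π.exists_rightInverse_of_surjective (LinearMap.range_eq_top.2 h.surj)
  have h1 : ∀ x, g.1 (i (π x)) = i (π (g.1 x)) := fun x => by simpa [h.eq] using hg x
  have h2 : ∀ y, g.1 (i y) = i ((π ∘ₗ g.1.toLinearMap ∘ₗ σ) y) := fun y => by
    simpa [show π (σ y) = y from LinearMap.congr_fun hσ y] using h1 (σ y)
  have h3 : ∀ u v, c ((π ∘ₗ g.1.toLinearMap ∘ₗ σ) u) ((π ∘ₗ g.1.toLinearMap ∘ₗ σ) v) = c u v :=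
    fun u v => by
      rw [LinearMap.comp_apply, h.adj, ← h2, LinearMap.comp_apply, LinearEquiv.coe_coe, g.2,
        ← h.adj, show π (σ u) = u from LinearMap.congr_fun hσ u]
  exact ⟨⟨LinearEquiv.ofInjectiveEndo (π ∘ₗ g.1.toLinearMap ∘ₗ σ)
    ((injective_iff_map_eq_zero _).2 fun u hu =>
    h.sym.nondeg u fun v => by rw [← h3, hu]; simp), h3⟩, h2⟩

theorem Data.range_eq (h : Data B t i π c z) {T : V →ₗ[F] V} (hT : ∀ x, T x = t x) :
    LinearMap.range (T - LinearMap.id) = LinearMap.range i := by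
  rw [show T - LinearMap.id = i ∘ₗ π from LinearMap.ext fun x => by simp [hT, h.eq],
    LinearMap.range_comp_of_range_eq_top _ (LinearMap.range_eq_top.2 h.surj)]

variable [FiniteDimensional F V]

theorem exists_data [Finite F] [CharP F 2] (hA : B.IsAlt) {T : V →ₗ[F] V}
    (hT : ∀ u v, B (T u) (T v) = B u v) (h2 : ∀ x, T (T x) = x) (hB : B.Nondegenerate) :
    ∃ π c z, Data B T (LinearMap.range (T - LinearMap.id)).subtype π c z := by
  have h0 : (2 : F) = 0 := CharTwo.two_eq_zero
  let π := (T - LinearMap.id).rangeRestrict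
  obtain ⟨σ, hσ⟩ := π.exists_rightInverse_of_surjective (LinearMap.range_rangeRestrict _)
  have h1 : ∀ y, T (σ y) - σ y = y := fun y => congrArg Subtype.val (LinearMap.congr_fun hσ y)
  have h3 : ∀ x y, B (T x) y = B x (T y) := fun x y => by rw [← hT x, h2]
  have h4 : ∀ x y, B (T x - x) (T y - y) = 0 := fun x y => by
    simp only [map_sub, LinearMap.sub_apply, h3, h2]
    linear_combination (B x y - B x (T y)) * h0
  let c : LinearMap.BilinForm F (LinearMap.range (T - LinearMap.id)) :=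
    B.compl₁₂ σ (Submodule.subtype _)
  have h5 : ∀ x y, c (π x) y = B x y := fun x y => by
    change B (σ (π x)) y = _
    rw [← h1 y, map_sub, map_sub, ← h3, ← h3, ← LinearMap.sub_apply, ← map_sub, h1,
      ← LinearMap.sub_apply, ← map_sub]
    rfl
  have h6 := (T - LinearMap.id).surjective_rangeRestrict
  obtain ⟨z, hz⟩ := exists_sym (B := c) (fun u v => by
    obtain ⟨x, rfl⟩ := h6 u
    obtain ⟨y, rfl⟩ := h6 v
    rw [h5, h5]
    change B x (T y - y) = B y (T x - x)
    rw [← LinearMap.IsAlt.neg hA _ y, map_sub, map_sub, LinearMap.sub_apply, h3]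
    linear_combination (B x (T y) - B x y) * h0) fun u hu => by
      obtain ⟨x, rfl⟩ := h6 u
      refine Subtype.ext (hB.1 _ fun y => ?_)
      have := hu (π y)
      rw [h5] at this
      change B (T x - x) y = 0
      rw [map_sub, LinearMap.sub_apply, h3, ← map_sub]
      exact this
  exact ⟨π, c, z, Subtype.val_injective, h6, fun x => by simp [π], h5,
    fun y y' => by rw [Submodule.subtype_apply, Submodule.subtype_apply, ← h1, ← h1 y', h4], hz⟩

theorem exists_invol [FiniteDimensional F M] [CharP F 2] (hA : B.IsAlt) (hB : B.Nondegenerate)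
    (hi : Function.Injective i) (h0 : ∀ y y', B (i y) (i y') = 0) (hc : Sym c z) :
    ∃ (T : IsoG B) (π : V →ₗ[F] M), T * T = 1 ∧ Data B T.1 i π c z := by
  let e := c.toDual ⟨hc.nondeg, fun v hv => hc.nondeg v fun u => by rw [hc.symm, hv]⟩
  let π : V →ₗ[F] M := e.symm ∘ₗ i.dualMap ∘ₗ (B.toDual hB).toLinearMap
  have h1 : ∀ x y, c (π x) y = B x (i y) := fun x y =>
    LinearMap.congr_fun (e.apply_symm_apply _) y
  have h2 : Data B (LinearMap.id + i ∘ₗ π : V →ₗ[F] V) i π c z :=
    ⟨hi, e.symm.surjective.comp ((LinearMap.dualMap_surjective_of_injective hi).comp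
      (B.toDual hB).surjective), fun _ => rfl, h1, h0, hc⟩
  have h3 : Function.Involutive (LinearMap.id + i ∘ₗ π : V →ₗ[F] V) := fun x => by
    rw [h2.eq x, map_add, h2.t_i, h2.eq, add_assoc, ← two_smul F, CharTwo.two_eq_zero, zero_smul,
      add_zero]
  refine ⟨⟨LinearEquiv.ofInvolutive _ h3, fun u v => ?_⟩, π, IsoG.ext' h3, h2⟩
  change B (u + i (π u)) (v + i (π v)) = _
  simp only [map_add, LinearMap.add_apply, h0, ← LinearMap.IsAlt.neg hA v, ← h1, hc.symm (π v)]
  ring

theorem Data.two_mul_le [FiniteDimensional F M] (h : Data B t i π c z) :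
    2 * finrank F M ≤ finrank F V := by
  have h1 := π.finrank_range_add_finrank_ker
  rw [LinearMap.range_eq_top.2 h.surj, finrank_top] at h1
  have h2 := Submodule.finrank_mono (show LinearMap.range i ≤ LinearMap.ker π by
    rintro _ ⟨y, rfl⟩; exact h.pi_i y)
  rw [LinearMap.finrank_range_of_inj h.inj] at h2
  omega

theorem Data.exists_conj [FiniteDimensional F M] [FiniteDimensional F M'] [CharP F 2]
    (h : Data B t i π c z) (h' : Data B t' i' π' c' z') (hA : B.IsAlt) (hB : B.Nondegenerate)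
    (hd : finrank F M = finrank F M') (hz : z = 0 ↔ z' = 0) :
    ∃ g : IsoG B, ∀ x, g.1 (t x) = t' (g.1 x) := by
  obtain ⟨e, he⟩ := h.sym.exists_isometry h'.sym hd hz
  let b := Module.finBasis F M
  obtain ⟨g, hg⟩ := witt_IsoG hA hB (u := i ∘ b) (u' := (i' ∘ₗ e.toLinearMap) ∘ b)
    (b.linearIndependent.map' i (LinearMap.ker_eq_bot.2 h.inj))
    (b.linearIndependent.map' _ (LinearMap.ker_eq_bot.2 (h'.inj.comp e.injective)))
    fun k l => by simp [h.iso, h'.iso]
  exact ⟨g, h.conj h' e he g.1 g.2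
    (LinearMap.congr_fun (b.ext (f₁ := g.1.toLinearMap ∘ₗ i) (f₂ := i' ∘ₗ e.toLinearMap) hg))⟩

section Card

variable [Fintype F]

theorem card_isotropic (hA : B.IsAlt) (hB : B.Nondegenerate) (s : ℕ) (hs : 2 * s ≤ finrank F V) :
    Nat.card {v : Fin s → V // LinearIndependent F v ∧ ∀ k l, B (v k) (v l) = 0} =
      ∏ k ∈ Finset.range s, (Fintype.card F ^ (finrank F V - k) - Fintype.card F ^ k) := by
  have : Finite V := Module.finite_of_finite F
  induction s with
  | zero =>
    rw [Finset.prod_range_zero, Nat.card_eq_one_iff_exists]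
    exact ⟨⟨Fin.elim0, linearIndependent_empty_type, fun k => k.elim0⟩,
      fun z => Subtype.ext (Subsingleton.elim _ _)⟩
  | succ s ih =>
    have key : ∀ (x : V) (v : Fin s → V), (LinearIndependent F (Fin.cons x v : Fin (s + 1) → V) ∧
        ∀ k l, B ((Fin.cons x v : Fin (s + 1) → V) k) ((Fin.cons x v : Fin (s + 1) → V) l) = 0) ↔
        (LinearIndependent F v ∧ ∀ k l, B (v k) (v l) = 0) ∧
          x ∈ B.orthogonal (Submodule.span F (Set.range v)) ∧ x ∉ Submodule.span F (Set.range v) := by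
      intro x v
      have h1 : x ∈ B.orthogonal (Submodule.span F (Set.range v)) ↔ ∀ k, B (v k) x = 0 :=
        ⟨fun h k => h _ (Submodule.subset_span ⟨k, rfl⟩), fun h y hy =>
          (Submodule.span_le (p := LinearMap.ker (B.flip x))).2 (by rintro _ ⟨k, rfl⟩; exact h k) hy⟩
      simp only [linearIndependent_finCons, Fin.forall_fin_succ, Fin.cons_zero, Fin.cons_succ, h1,
        hA x, true_and, forall_and]
      have h2 : (∀ k, B x (v k) = 0) ↔ ∀ k, B (v k) x = 0 :=
        forall_congr' fun k => by rw [← LinearMap.IsAlt.neg hA, neg_eq_zero]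
      tauto
    rw [Finset.prod_range_succ, ← ih (by omega)]
    refine card_eq_mul_of_fiber_card (fun v => (⟨Fin.tail v.1, ((key (v.1 0) (Fin.tail v.1)).1
      (by rw [Fin.cons_self_tail]; exact v.2)).1⟩ :
        {v : Fin s → V // LinearIndependent F v ∧ ∀ k l, B (v k) (v l) = 0})) _
      (Nat.sub_ne_zero_of_lt (Nat.pow_lt_pow_right Fintype.one_lt_card (by omega))) ?_
    rintro ⟨v, hv⟩
    set S := Submodule.span F (Set.range v)
    have h1 : finrank F S = s := by simpa using finrank_span_eq_card hv.1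
    have h2 : S ≤ B.orthogonal S := Submodule.span_le.2 (by
      rintro _ ⟨l, rfl⟩ y hy
      exact (Submodule.span_le (p := LinearMap.ker (B.flip (v l)))).2
        (by rintro _ ⟨k, rfl⟩; exact hv.2 k l) hy)
    have h3 := Set.ncard_sdiff (s := (S : Set V)) (t := B.orthogonal S) h2
    rw [← Nat.card_coe_set_eq, ← Nat.card_coe_set_eq, ← Nat.card_coe_set_eq, SetLike.coe_sort_coe,
      SetLike.coe_sort_coe, Module.natCard_eq_pow_finrank (K := F) (V := S),
      Module.natCard_eq_pow_finrank (K := F) (V := B.orthogonal S),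
      LinearMap.BilinForm.finrank_orthogonal hB, h1, Nat.card_eq_fintype_card (α := F)] at h3
    rw [← h3]
    exact Nat.card_congr
      { toFun := fun x => ⟨x.1.1 0, by
          obtain ⟨x, hx⟩ := x
          obtain rfl : Fin.tail x.1 = v := congrArg Subtype.val hx
          exact ((key (x.1 0) (Fin.tail x.1)).1 (by rw [Fin.cons_self_tail]; exact x.2)).2⟩
        invFun := fun x => ⟨⟨Fin.cons x.1 v, (key _ _).2 ⟨hv, x.2⟩⟩, Subtype.ext (by simp)⟩
        left_inv := by
          rintro ⟨x, hx⟩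
          obtain rfl : Fin.tail x.1 = v := congrArg Subtype.val hx
          exact Subtype.ext (Subtype.ext (Fin.cons_self_tail _))
        right_inv := fun _ => rfl }

theorem spOrder_eq_prod (q s j : ℕ) : ∃ E, 2 * E + 3 * s ^ 2 = 4 * ((s + j) * s) + s ∧
    spOrder q (s + j) =
      (∏ k ∈ Finset.range s, (q ^ (2 * (s + j) - k) - q ^ k)) * (q ^ E * spOrder q j) := by
  induction s with
  | zero => exact ⟨0, by simp, by simp⟩
  | succ s ih =>
    obtain ⟨E, h1, h2⟩ := ih
    refine ⟨E + (s + 2 * j + 1), by linear_combination h1, ?_⟩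
    rw [Finset.prod_range_succ', Finset.prod_congr rfl (g := fun k => q * (q ^ (2 * (s + j) - k) - q ^ k))
      fun k hk => by
        rw [Nat.mul_sub, ← pow_succ', ← pow_succ']
        have := Finset.mem_range.1 hk
        congr 2; omega,
      Finset.prod_mul_distrib, show s + 1 + j = s + j + 1 by omega, spOrder_succ, h2]
    simp only [Finset.prod_const, Finset.card_range, Nat.sub_zero, pow_zero]
    ring

theorem Data.card_comm [FiniteDimensional F M] (h : Data B t i π c z) (hA : B.IsAlt)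
    (hB : B.Nondegenerate) {m s : ℕ} (hm : finrank F V = 2 * m) (hs : finrank F M = s) :
    ∃ E, 2 * E + 3 * s ^ 2 = 4 * (m * s) + s ∧
      Nat.card {g : IsoG B // ∀ x, g.1 (t x) = t (g.1 x)} =
        Fintype.card F ^ E * Nat.card (IsoG c) * spOrder (Fintype.card F) (m - s) := by
  have h0 := h.two_mul_le
  obtain ⟨j, rfl⟩ : ∃ j, m = s + j := ⟨m - s, by omega⟩
  obtain ⟨E, h1, h2⟩ := spOrder_eq_prod (Fintype.card F) s j
  refine ⟨E, h1, ?_⟩
  let b := Module.finBasisOfFinrankEq F M hs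
  have h3 := card_preimage_mul_card (MulAction.stabilizer (IsoG B) (i ∘ b)) (fun g k => g.1 (i (b k)))
    (fun g g' => by
      rw [MulAction.mem_stabilizer_iff, funext_iff, funext_iff]
      exact forall_congr' fun k => (IsoG.inv_mul_apply_eq g g' _).symm)
    (fun v => ∃ φ : IsoG c, (fun k => i (φ.1 (b k))) = v)
    (fun v => LinearIndependent F v ∧ ∀ k l, B (v k) (v l) = 0)
    (fun v => ⟨fun hv => (witt_IsoG hA hB (b.linearIndependent.map' i (LinearMap.ker_eq_bot.2 h.inj))
      hv.1 fun k l => by simp [h.iso, hv.2]).imp fun g hg => funext hg, by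
        rintro ⟨g, rfl⟩
        exact ⟨b.linearIndependent.map' (g.1.toLinearMap ∘ₗ i)
          (LinearMap.ker_eq_bot.2 (g.1.injective.comp h.inj)), fun k l => by simp [h.iso]⟩⟩)
    (by
      rintro _ ⟨φ, rfl⟩
      exact ⟨b.linearIndependent.map' (i ∘ₗ φ.1.toLinearMap)
        (LinearMap.ker_eq_bot.2 (h.inj.comp φ.1.injective)), fun k l => h.iso _ _⟩)
  have h5 : Nat.card {y // ∃ φ : IsoG c, (fun k => i (φ.1 (b k))) = y} = Nat.card (IsoG c) :=
    (Nat.card_congr (Equiv.ofInjective (fun φ : IsoG c => fun k => i (φ.1 (b k))) fun φ φ' hφ =>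
      Subtype.ext (b.ext' fun k => h.inj (congrFun hφ k)))).symm
  rw [card_isotropic hA hB s (by omega), card_IsoG_alt hA hB hm, h2, hm, h5,
    ← Nat.card_congr (Equiv.subtypeEquivRight (p := fun g : IsoG B => ∀ x, g.1 (t x) = t (g.1 x))
      fun g => (h.comm_iff g).trans (exists_congr fun φ => ⟨fun h4 => funext fun k => (h4 _).symm,
        fun h4 => LinearMap.congr_fun (b.ext (f₁ := g.1.toLinearMap ∘ₗ i)
          (f₂ := i ∘ₗ φ.1.toLinearMap) fun k => (congrFun h4 k).symm)⟩))] at h3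
  refine Nat.eq_of_mul_eq_mul_right (Finset.prod_pos fun k hk => Nat.sub_pos_of_lt
    (Nat.pow_lt_pow_right Fintype.one_lt_card (by have := Finset.mem_range.1 hk; omega)))
    (h3.trans ?_)
  rw [Nat.add_sub_cancel_left]; ring

end Card

end Cfsg.Agent.Lib.GL.SymTwo
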