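import Mathlib
import Cfsg.Agent.Lib.GL.Invol2
import Cfsg.Agent.Lib.GL.ClassCount
import Cfsg.Agent.Lib.Forms.QuadBasic

/-!
Classes and centralisers of involutions of symplectic groups in characteristic two.
-/

set_option autoImplicit false

open Module Matrix QuadraticMap

namespace Cfsg.Agent.Lib.GL.SymTwo

open Cfsg.Agent.Lib.GL.Alt Cfsg.Agent.Lib.Forms Cfsg.Agent.Lib.GL.ClassCount

section Comb

theorem card_classes_congr {G H : Type*} [Group G] [Group H] (e : G ≃* H) (n : ℕ) :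
    Nat.card {C : ConjClasses G // ∃ g, ConjClasses.mk g = C ∧ orderOf g = n} =
      Nat.card {C : ConjClasses H // ∃ g, ConjClasses.mk g = C ∧ orderOf g = n} :=
  card_classes_of_iff _ (fun g => ConjClasses.mk (e g)) _
    (fun g g' _ _ => by
      rw [ConjClasses.mk_eq_mk_iff_isConj]
      exact ⟨e.toMonoidHom.map_isConj, fun h => by simpa using e.symm.toMonoidHom.map_isConj h⟩)
    fun C => by simp only [e.surjective.exists, MulEquiv.orderOf_eq, and_comm]

theorem card_prod_prop {X : Type*} (P : X × Prop → Prop) [Finite {x // P (x, True)}]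
    [Finite {x // P (x, False)}] :
    Nat.card {x // P x} = Nat.card {x // P (x, True)} + Nat.card {x // P (x, False)} := by
  rw [← Nat.card_sum]
  refine (Nat.card_congr (Equiv.ofBijective (Sum.elim (fun x => ⟨(x.1, True), x.2⟩)
    fun x => ⟨(x.1, False), x.2⟩) ⟨?_, ?_⟩)).symm
  · rintro (x | x) (y | y) <;> simp [Subtype.ext_iff]
  · rintro ⟨⟨x, p⟩, h⟩
    rcases Classical.propComplete p with rfl | rfl
    exacts [⟨.inl ⟨x, h⟩, rfl⟩, ⟨.inr ⟨x, h⟩, rfl⟩]

theorem card_le_subtype (m : ℕ) : Nat.card {s : ℕ // s ≠ 0 ∧ s ≤ m} = m := by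
  rw [Nat.subtype_card (Finset.Ioc 0 m) (by simp [Nat.pos_iff_ne_zero]), Nat.card_Ioc, Nat.sub_zero]

theorem card_even_subtype (m : ℕ) : Nat.card {s : ℕ // s ≠ 0 ∧ Even s ∧ s ≤ m} = m / 2 := by
  rw [Nat.subtype_card ((Finset.Ioc 0 m).filter (2 ∣ ·)) (by
    simp [Nat.pos_iff_ne_zero, even_iff_two_dvd]; tauto), Nat.Ioc_filter_dvd_card_eq_div]

theorem card_classes_two {G : Type*} [Group G] (Φ : G → ℕ × Prop) (h1 : ∀ g, (Φ g).1 = 0 ↔ g = 1)
    (h : ∀ g g', g * g = 1 → g' * g' = 1 → (IsConj g g' ↔ Φ g = Φ g')) (P P' : ℕ → Prop) (n : ℕ)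
    (hn : ∀ s, P s ∨ P' s → s ≤ n)
    (hP : ∀ s ≠ 0, P s ↔ ∃ g, g * g = 1 ∧ Φ g = (s, True))
    (hP' : ∀ s ≠ 0, P' s ↔ ∃ g, g * g = 1 ∧ Φ g = (s, False)) :
    Nat.card {C : ConjClasses G // ∃ g, ConjClasses.mk g = C ∧ orderOf g = 2} =
      Nat.card {s // s ≠ 0 ∧ P s} + Nat.card {s // s ≠ 0 ∧ P' s} := by
  have h2 : ∀ g : G, orderOf g = 2 ↔ g * g = 1 ∧ g ≠ 1 := fun g => by
    rw [orderOf_eq_prime_iff, pow_two]
  have h3 : ∀ R : ℕ → Prop, (∀ s, R s → s ≤ n) → Finite {s // R s} := fun R hR =>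
    (Set.finite_le_nat n).subset hR
  have h4 : ∀ s p, (∃ g, orderOf g = 2 ∧ Φ g = (s, p)) ↔ s ≠ 0 ∧ ∃ g, g * g = 1 ∧ Φ g = (s, p) :=
    fun s p => ⟨fun ⟨g, hg, hs⟩ => ⟨fun h0 => ((h2 g).1 hg).2 ((h1 g).1 (by rw [hs, h0])), g,
      ((h2 g).1 hg).1, hs⟩, fun ⟨h0, g, hg, hs⟩ =>
        ⟨g, (h2 g).2 ⟨hg, fun h5 => h0 (by rw [← (h1 g).2 h5, hs])⟩, hs⟩⟩
  have h5 := fun s => (h4 s True).trans (and_congr_right fun hs => (hP s hs).symm)
  have h6 := fun s => (h4 s False).trans (and_congr_right fun hs => (hP' s hs).symm)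
  have := h3 _ fun s hs => hn s (.inl ((h5 s).1 hs).2)
  have := h3 _ fun s hs => hn s (.inr ((h6 s).1 hs).2)
  rw [card_classes _ Φ fun g g' hg hg' => h g g' ((h2 g).1 hg).1 ((h2 g').1 hg').1, card_prod_prop,
    Nat.card_congr (Equiv.subtypeEquivRight h5), Nat.card_congr (Equiv.subtypeEquivRight h6)]

end Comb

variable {F : Type*} [Field F] {V : Type*} [AddCommGroup V] [Module F V]
  {M : Type*} [AddCommGroup M] [Module F M]

/-- The type of an involution. -/
noncomputable def ty (B : LinearMap.BilinForm F V) (T : V ≃ₗ[F] V) : ℕ × Prop :=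
  (finrank F (LinearMap.range ((T : V →ₗ[F] V) - LinearMap.id)), ∀ x, B x (T x) = 0)

variable {B : LinearMap.BilinForm F V} {t : V → V} {i : M →ₗ[F] V} {π : V →ₗ[F] M}
  {c : LinearMap.BilinForm F M} {z : M}

theorem Data.ty_eq {T : V ≃ₗ[F] V} (h : Data B T i π c z) (hA : B.IsAlt) :
    ty B T = (finrank F M, z = 0) := by
  rw [ty, h.range_eq (T := T) fun _ => rfl, LinearMap.finrank_range_of_inj h.inj, h.alt_iff hA]

theorem Data.map (h : Data B t i π c z) (g : V ≃ₗ[F] V) (hg : ∀ u v, B (g u) (g v) = B u v) :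
    Data B (fun x => g (t (g.symm x))) (g.toLinearMap ∘ₗ i) (π ∘ₗ g.symm.toLinearMap) c z :=
  ⟨g.injective.comp h.inj, h.surj.comp g.symm.surjective, fun x => by simp [h.eq],
    fun x y => by simp [h.adj, ← hg (g.symm x)], fun y y' => by simp [hg, h.iso], h.sym⟩

theorem ty_conj (T g : V ≃ₗ[F] V) (hg : ∀ u v, B (g u) (g v) = B u v) :
    ty B (g * T * g⁻¹) = ty B T := by
  refine Prod.ext ?_ (propext ?_)
  · simp only [ty]
    rw [show ((g * T * g⁻¹ : V ≃ₗ[F] V) : V →ₗ[F] V) - LinearMap.id = (g.toLinearMap ∘ₗ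
      (T.toLinearMap - LinearMap.id)) ∘ₗ g.symm.toLinearMap from LinearMap.ext fun x => by simp,
      LinearMap.range_comp_of_range_eq_top _ g.symm.range, LinearMap.range_comp, g.finrank_map_eq]
  · simp only [ty]
    rw [g.surjective.forall]
    simp [hg]

variable [FiniteDimensional F V]

theorem ty_eq_zero_iff (T : V ≃ₗ[F] V) : (ty B T).1 = 0 ↔ T = 1 := by
  rw [ty, Submodule.finrank_eq_zero, LinearMap.range_eq_bot, sub_eq_zero]
  exact LinearEquiv.toLinearMap_inj (e₂ := 1)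

theorem Sym.even_of_eq_zero [FiniteDimensional F M] [CharP F 2] (h : Sym c 0) :
    Even (finrank F M) := by
  rw [← Nat.not_odd_iff_even, h.odd_iff]; simp

theorem exists_sym_nonalt (F : Type*) [Field F] [CharP F 2] {s : ℕ} (hs : s ≠ 0) :
    ∃ (c : LinearMap.BilinForm F (Fin s → F)) (z : Fin s → F), Sym c z ∧ z ≠ 0 ∧
      ∀ y, c y y = ∑ k, y k ^ 2 := by
  refine ⟨Matrix.toBilin' 1, 1, ⟨fun u v => by simp [toBilin'_apply', dotProduct_comm], fun u hu =>
    funext fun k => by simpa [toBilin'_apply', -mulVec_single] using hu (Pi.single k 1), fun u => ?_⟩,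
    fun h => one_ne_zero (congrFun h ⟨0, Nat.pos_of_ne_zero hs⟩), fun u => ?_⟩ <;>
  simp [toBilin'_apply', dotProduct, sum_pow_char, ← pow_two]

theorem sym_sympBilin [CharP F 2] (k : ℕ) : Sym (sympBilin k F) 0 :=
  ⟨fun u v => by rw [← (sympBilin_isAlt k).neg_eq, CharTwo.neg_eq], (sympBilin_nondegenerate k).1,
    fun u => by simp [sympBilin_isAlt k u]⟩

variable [CharP F 2]

theorem isConj_IsoG_iff [Finite F] (hA : B.IsAlt) (hB : B.Nondegenerate) (T T' : IsoG B)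
    (hT : T * T = 1) (hT' : T' * T' = 1) : IsConj T T' ↔ ty B T.1 = ty B T'.1 := by
  refine ⟨fun h => ?_, fun h => ?_⟩
  · obtain ⟨g, rfl⟩ := isConj_iff.1 h
    exact (ty_conj T.1 g.1 g.2).symm
  obtain ⟨π, c, z, h1⟩ := exists_data hA (T := T.1) T.2 (fun x => by
    simpa using congrArg (fun g : IsoG B => g.1 x) hT) hB
  obtain ⟨π', c', z', h2⟩ := exists_data hA (T := T'.1) T'.2 (fun x => by
    simpa using congrArg (fun g : IsoG B => g.1 x) hT') hB
  rw [h1.ty_eq hA, h2.ty_eq hA, Prod.mk.injEq, eq_iff_iff] at h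
  obtain ⟨g, hg⟩ := h1.exists_conj h2 hA hB h.1 h.2
  exact isConj_iff.2 ⟨g, mul_inv_eq_iff_eq_mul.2 (IsoG.ext' hg)⟩

omit [FiniteDimensional F V] in
theorem Data.map_Q_iff {Q : QuadraticForm F V} (h : Data (polarBilin Q) t i π c z) :
    (∀ x, Q (t x) = Q x) ↔ ∀ y, Q (i y) = c y y := by
  rw [h.surj.forall]
  refine forall_congr' fun x => ?_
  rw [h.eq, Q_add, h.adj, polarBilin_apply_apply, add_assoc, add_eq_left, CharTwo.add_eq_zero]

omit [FiniteDimensional F V] [CharP F 2] in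
theorem Q_linearCombination {Q : QuadraticForm F V} {ι : Type*} [Fintype ι] {v : ι → V}
    (h : ∀ k l, polarBilin Q (v k) (v l) = 0) (y : ι → F) :
    Q (Fintype.linearCombination F v y) = ∑ k, y k ^ 2 * Q (v k) := by
  classical
  rw [Fintype.linearCombination_apply]
  induction (Finset.univ : Finset ι) using Finset.induction with
  | empty => simp
  | insert k s hk ih =>
    rw [Finset.sum_insert hk, Finset.sum_insert hk, Q_add, ih, Q_smul, ← polarBilin_apply_apply]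
    simp [h, pow_two, -polarBilin_apply_apply]

theorem exists_invol_family (hA : B.IsAlt) (hB : B.Nondegenerate) {ι : Type*} [Fintype ι] {n : ℕ}
    {e : Fin n → V} (he : LinearIndependent F e) (h0 : ∀ k l, B (e k) (e l) = 0)
    (hn : Fintype.card ι ≤ n) {c : LinearMap.BilinForm F (ι → F)} {z : ι → F} (hc : Sym c z) :
    ∃ T : IsoG B, T * T = 1 ∧ ty B T.1 = (Fintype.card ι, z = 0) ∧ ∀ (Q : QuadraticForm F V) (a : F),
      polarBilin Q = B → (∀ k, Q (e k) = a) → (∀ y, c y y = ∑ k, y k ^ 2 * a) →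
        ∀ x, Q (T.1 x) = Q x := by
  obtain ⟨f⟩ := Function.Embedding.nonempty_of_card_le (hn.trans_eq (Fintype.card_fin n).symm)
  obtain ⟨T, π, h1, h2⟩ := exists_invol hA hB (i := Fintype.linearCombination F (e ∘ f))
    (he.comp f f.injective).fintypeLinearCombination_injective
    (fun y y' => by simp [Fintype.linearCombination_apply, h0]) hc
  refine ⟨T, h1, by simpa using h2.ty_eq hA, ?_⟩
  rintro Q a rfl h3 h4
  exact h2.map_Q_iff.2 fun y => by simp [Q_linearCombination (v := e ∘ f) fun k l => h0 _ _, h3, h4]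

theorem exists_ty_alt (hA : B.IsAlt) (hB : B.Nondegenerate) {n s : ℕ} {e : Fin n → V}
    (he : LinearIndependent F e) (h0 : ∀ k l, B (e k) (e l) = 0) (hs : Even s) (hn : s ≤ n) :
    ∃ T : IsoG B, T * T = 1 ∧ ty B T.1 = (s, True) ∧ ∀ Q : QuadraticForm F V,
      polarBilin Q = B → (∀ k, Q (e k) = 0) → ∀ x, Q (T.1 x) = Q x := by
  obtain ⟨k, rfl⟩ := hs
  obtain ⟨T, h1, h2, h3⟩ := exists_invol_family hA hB he h0 (by simpa using hn) (sym_sympBilin k)
  exact ⟨T, h1, by simpa using h2, fun Q h4 h5 => h3 Q 0 h4 h5 fun y => by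
    simp [sympBilin_isAlt k y]⟩

theorem exists_ty_nonalt (hA : B.IsAlt) (hB : B.Nondegenerate) {n s : ℕ} {e : Fin n → V}
    (he : LinearIndependent F e) (h0 : ∀ k l, B (e k) (e l) = 0) (hs : s ≠ 0) (hn : s ≤ n) :
    ∃ T : IsoG B, T * T = 1 ∧ ty B T.1 = (s, False) ∧ ∀ Q : QuadraticForm F V,
      polarBilin Q = B → (∀ k, Q (e k) = 1) → ∀ x, Q (T.1 x) = Q x := by
  obtain ⟨c, z, hc, hz, h⟩ := exists_sym_nonalt F hs
  obtain ⟨T, h1, h2, h3⟩ := exists_invol_family hA hB he h0 (by simpa using hn) hc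
  exact ⟨T, h1, by simpa [hz] using h2, fun Q h4 h5 => h3 Q 1 h4 h5 fun y => by simp [h]⟩

theorem le_of_ty [Finite F] (hA : B.IsAlt) (hB : B.Nondegenerate) {T : V ≃ₗ[F] V}
    (hT : ∀ u v, B (T u) (T v) = B u v) (h2 : ∀ x, T (T x) = x) {s : ℕ} {p : Prop}
    (h : ty B T = (s, p)) : 2 * s ≤ finrank F V ∧ (p → Even s) := by
  obtain ⟨π, c, z, h1⟩ := exists_data hA (T := T) hT h2 hB
  rw [h1.ty_eq hA, Prod.mk.injEq] at h
  obtain ⟨rfl, rfl⟩ := h
  exact ⟨h1.two_mul_le, by rintro rfl; exact h1.sym.even_of_eq_zero⟩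

theorem card_centralizer_Sp [Fintype F] {m s : ℕ} (t : Matrix.symplecticGroup (Fin m) F)
    (ht : t ^ 2 = 1) (hs : (t.1 - 1).rank = s) :
    ∃ (M : Submodule F (Fin m ⊕ Fin m → F)) (c : LinearMap.BilinForm F M) (z : M) (E : ℕ),
      finrank F M = s ∧ Sym c z ∧ ((∀ v, Cfsg.sympForm m F v (t.1 *ᵥ v) = 0) ↔ z = 0) ∧
      2 * E + 3 * s ^ 2 = 4 * (m * s) + s ∧
      Nat.card (Subgroup.centralizer ({t} : Set (Matrix.symplecticGroup (Fin m) F))) =
        Fintype.card F ^ E * Nat.card (IsoG c) * spOrder (Fintype.card F) (m - s) := by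
  obtain ⟨π, c, z, h⟩ := exists_data (sympBilin_isAlt m) (T := t.1.mulVecLin) (toSp m F t).2
    (fun x => by simpa [pow_two] using congrArg (fun g => g.1 *ᵥ x) ht) (sympBilin_nondegenerate m)
  have h1 : finrank F (LinearMap.range (t.1.mulVecLin - LinearMap.id)) = s := by
    rw [← hs, Matrix.rank, show (t.1 - 1).mulVecLin = t.1.mulVecLin - LinearMap.id from
      LinearMap.ext fun x => by simp [sub_mulVec]]
  obtain ⟨E, h2, h3⟩ := h.card_comm (sympBilin_isAlt m) (sympBilin_nondegenerate m) (m := m)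
    (by simp [two_mul]) h1
  refine ⟨_, c, z, E, h1, h.sym, by simpa [sympBilin_apply] using h.alt_iff (sympBilin_isAlt m), h2,
    (Nat.card_congr ((toSp m F).subtypeEquiv fun g => ?_)).trans h3⟩
  rw [Subgroup.mem_centralizer_singleton_iff, Subtype.ext_iff]
  exact ⟨fun h4 x => by simpa using congrArg (· *ᵥ x) h4,
    fun h4 => matrix_ext_mulVec fun x => by simpa using h4 x⟩

end Cfsg.Agent.Lib.GL.SymTwo
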