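import Mathlib
import Cfsg.Agent.Lib.GL.SpReal
import Cfsg.Agent.Lib.Forms.QuadClassify2

/-!
Conjugacy of semisimple elements in orthogonal groups; the type of a quadratic form as a count.
-/

set_option autoImplicit false

open Module Matrix Polynomial QuadraticMap

namespace Cfsg.Agent.Lib.GL.OrthConj

open Cfsg.Agent.Lib.GL.Alt Cfsg.Agent.Lib.GL.RingNorm Cfsg.Agent.Lib.GL.Sim Cfsg.Agent.Lib.Forms
  Cfsg.Agent.Lib.GL.AltConj Cfsg.Agent.Lib.GL.Count

variable {F : Type*} [Field F] {V : Type*} [AddCommGroup V] [Module F V]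
  {W : Type*} [AddCommGroup W] [Module F W]

section Conj

variable [Finite F] [FiniteDimensional F V]

theorem exists_comm_symm {A : Module.End F V} (h1 : ∀ v, A v = v → v = 0)
    (h2 : ∀ v, A v = -v → v = 0) {B B' : LinearMap.BilinForm F V} (hA : ∀ u v, B u v = B v u)
    (hB : B.Nondegenerate) (hA' : ∀ u v, B' u v = B' v u) (hB' : B'.Nondegenerate)
    (hi : ∀ u v, B (A u) (A v) = B u v) (hi' : ∀ u v, B' (A u) (A v) = B' u v) :
    ∃ X : Module.End F V, (∀ v, X (A v) = A (X v)) ∧ ∀ u v, B (X u) (X v) = B' u v := by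
  have : Finite V := Module.finite_of_finite F
  have : Finite (Module.End F V) := Finite.of_injective _ DFunLike.coe_injective
  let H := B'.symmCompOfNondegenerate B hB
  have hH : ∀ u v, B (H u) v = B' u v := fun u v => B'.symmCompOfNondegenerate_left_apply hB v u
  have hd : AntiInv (adjB B hB) :=
    { map_one := eq_of_forall_apply hB fun u v => by simp [adjB_apply]
      map_mul := fun a b => eq_of_forall_apply hB fun u v => by simp [adjB_apply]
      invol := fun a => eq_of_forall_apply hB fun u v => by rw [adjB_apply, hA, adjB_apply, hA] }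
  have hAu : IsUnit A := (LinearMap.isUnit_iff_ker_eq_bot _).2
    (LinearMap.ker_eq_bot.2 (injective_of_isometry hB hi))
  have e1 : adjB B hB A * A = 1 := eq_of_forall_apply hB fun u v => by simp [adjB_apply, hi]
  have e2 : A * adjB B hB A = 1 := mul_eq_one_comm.1 e1
  have hHA : Commute A H := by
    refine (hd.isUnit hAu).mul_left_cancel (eq_of_forall_apply hB fun u v => ?_)
    rw [← mul_assoc, e1, one_mul]
    simp [adjB_apply, hH, hi']
  have a1 : IsUnit H := by
    refine (LinearMap.isUnit_iff_ker_eq_bot _).2 (LinearMap.ker_eq_bot'.2 fun v hv => ?_)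
    exact hB'.1 v fun u => by rw [← hH, hv]; simp
  have a2 : adjB B hB H = H := by
    refine eq_of_forall_apply hB fun u v => ?_
    rw [adjB_apply, hH, hA, hH, hA']
  have a3 : IsUnit (A - adjB B hB A) := by
    refine (LinearMap.isUnit_iff_ker_eq_bot _).2 (LinearMap.ker_eq_bot'.2 fun v hv => ?_)
    have h5 : A (A v) = v := by
      have := congrArg A hv
      rwa [LinearMap.sub_apply, map_sub, map_zero, ← Module.End.mul_apply A (adjB B hB A), e2,
        sub_eq_zero] at this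
    have h6 := h1 (A v + v) (by rw [map_add, h5, add_comm])
    exact h2 v (eq_neg_of_add_eq_zero_left h6)
  obtain ⟨y, -, h3, h4⟩ := hd.exists_norm a1 a2 hHA (e2.trans e1.symm) a3
  refine ⟨y, fun v => LinearMap.congr_fun (h3 A hHA.symm (Commute.refl _) (e1.trans e2.symm)).eq v,
    fun u v => ?_⟩
  rw [← hH, ← h4, Module.End.mul_apply, adjB_apply]

theorem exists_comm_quad {A : Module.End F V} (h1 : ∀ v, A v = v → v = 0)
    (h2 : ∀ v, A v = -v → v = 0) {Q Q' : QuadraticForm F V} (hQ : Nondeg Q) (hQ' : Nondeg Q')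
    (hi : ∀ v, Q (A v) = Q v) (hi' : ∀ v, Q' (A v) = Q' v) :
    ∃ X : Module.End F V, (∀ v, X (A v) = A (X v)) ∧ ∀ v, Q (X v) = Q' v := by
  obtain ⟨X, h3, h4⟩ := exists_comm_symm h1 h2 (polar_comm Q) hQ (polar_comm Q') hQ'
    (polar_map_of_isom A hi) (polar_map_of_isom A hi')
  refine ⟨X, h3, fun v => ?_⟩
  obtain ⟨w, rfl⟩ := (LinearMap.injective_iff_surjective (f := A - 1)).1
    ((injective_iff_map_eq_zero _).2 fun v hv => h1 v (sub_eq_zero.1 hv)) v
  have e1 : polar Q (X (A w)) (X w) = polar Q' (A w) w := h4 _ _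
  have e2 : polar Q (X w) (X w) = polar Q' w w := h4 _ _
  rw [polar_self', polar_self'] at e2
  rw [LinearMap.sub_apply, End.one_apply, map_sub, Q_sub, Q_sub, e1, h3, hi, hi']
  linear_combination e2

variable {Q : QuadraticForm F V}

theorem isConj_OG (hQ : Nondeg Q) (A B : OG Q) (P : V ≃ₗ[F] V) (hP : ∀ v, P (A.1 v) = B.1 (P v))
    (hs : ∀ v ∈ resSp A, A.1 v = v → v = 0) (h2 : ∀ v, A.1 v = -v → A.1 v = v) : IsConj A B := by
  have hU : ∀ v ∈ resSp A, A.1.toLinearMap v ∈ resSp A := fun v hv => by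
    obtain ⟨x, rfl⟩ := mem_resSp.1 hv
    exact mem_resSp.2 ⟨A.1 x, by simp⟩
  have hB : ∀ y ∈ resSp B, ∃ x ∈ resSp A, P x = y := fun y hy => by
    obtain ⟨z, rfl⟩ := mem_resSp.1 hy
    exact ⟨_, sub_mem_resSp A (P.symm z), by simp [hP]⟩
  obtain ⟨X, h3, h4⟩ := exists_comm_quad (A := A.1.toLinearMap.restrict hU)
    (fun v hv => Subtype.ext (hs v v.2 (congrArg Subtype.val hv)))
    (fun v hv => Subtype.ext (hs v v.2 (h2 v (congrArg Subtype.val hv))))
    (Q := Q.comp (P.toLinearMap ∘ₗ (resSp A).subtype)) (Q' := Q.comp (resSp A).subtype)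
    (nondeg_of fun x hx => Subtype.ext (hs x x.2 (P.injective (by
      rw [hP]
      refine hQ.fix_of_perp_res fun y hy => ?_
      obtain ⟨z, hz, rfl⟩ := hB y hy
      exact (polar_map_of_isom (P.toLinearMap ∘ₗ (resSp A).subtype) (fun _ => rfl) x
        ⟨z, hz⟩).trans (hx _)))))
    (nondeg_of fun x hx => Subtype.ext (hs x x.2 (hQ.fix_of_perp_res fun y hy =>
      (polar_map_of_isom (resSp A).subtype (fun _ => rfl) x ⟨y, hy⟩).trans (hx _))))
    (fun v => by simp [hP]) (fun v => by simp)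
  have h5 : Function.Injective X := (injective_iff_map_eq_zero _).2 fun v hv =>
    Subtype.ext (hs v v.2 (hQ.fix_of_perp_res fun y hy => by
      have := polar_map_of_isom X h4 v ⟨y, hy⟩
      rw [hv, polar_zero_left] at this
      exact (polar_map_of_isom (resSp A).subtype (fun _ => rfl) v ⟨y, hy⟩).trans this.symm))
  obtain ⟨g, hg⟩ := hQ.witt_submodule (resSp A) (P.toLinearMap ∘ₗ (resSp A).subtype ∘ₗ X)
    (P.injective.comp (Subtype.val_injective.comp h5)) h4
  refine isConj_iff.2 ⟨g, mul_inv_eq_iff_eq_mul.2 (OG.ext' fun v => ?_)⟩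
  have hc := isCompl_ker_range (T := A.1.toLinearMap - LinearMap.id)
    fun v hv => hs _ (sub_mem_resSp A v) (sub_eq_zero.1 hv)
  obtain ⟨k, hk, w, hw, rfl⟩ := Submodule.mem_sup.1 (hc.sup_eq_top ▸ Submodule.mem_top (x := v))
  have hk' : A.1 k = k := mem_fixSp.1 hk
  rw [OG.mul_apply, OG.mul_apply, map_add, map_add, map_add, map_add, hk']
  congr 1
  · refine (hQ.fix_of_perp_res fun y hy => ?_).symm
    obtain ⟨t, ht, rfl⟩ := hB y hy
    obtain ⟨z, hz⟩ := LinearMap.injective_iff_surjective.1 h5 ⟨t, ht⟩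
    have : P t = g.1 z := by rw [hg]; simp [hz]
    rw [this, OG.map_polar, polar_fix_res hk' z.2]
  · have := hg ⟨w, hw⟩
    rw [this, show A.1 w = (A.1.toLinearMap.restrict hU ⟨w, hw⟩ : V) from rfl, hg, LinearMap.comp_apply,
      LinearMap.comp_apply, h3]
    exact hP _

theorem isConj_isometryGroup_iff {ι : Type} [Fintype ι] [DecidableEq ι] {Q : QuadraticForm F (ι → F)}
    (hQ : Nondeg Q) (A B : Cfsg.isometryGroup F Q) {n : ℕ} (hn : Odd n) (hnF : (n : F) ≠ 0)
    (hA : A ^ n = 1) : IsConj A B ↔ IsConj (A.1 : Matrix ι ι F) B.1 := by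
  refine ⟨((Units.coeHom _).comp (Subgroup.subtype _)).map_isConj, fun ⟨P, hP⟩ => ?_⟩
  have hA' : (A.1 : Matrix ι ι F) ^ n = 1 := congrArg (fun x : Cfsg.isometryGroup F Q => x.1.1) hA
  suffices h : IsConj (toOG Q A) (toOG Q B) by
    simpa using (toOG Q).symm.toMonoidHom.map_isConj h
  refine isConj_OG hQ _ _ (equivOfGL P) (fun v => by simp [hP.eq]) (fun v hv h => ?_) fun v hv => ?_
  · obtain ⟨x, rfl⟩ := mem_resSp.1 hv
    simpa using semisimple_of_squarefree (A := toLin' A.1.1)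
      (separable_X_pow_sub_C 1 hnF one_ne_zero).squarefree
      (aeval_toLin'_eq_zero.2 (by simp [hA'])) 1 x (by simpa [sub_eq_zero] using h)
  · have h : ∀ k, (A.1.1 ^ k) *ᵥ v = (-1) ^ k • v := fun k => by
      induction k with
      | zero => simp
      | succ k ih =>
        rw [pow_succ, ← mulVec_mulVec, show A.1.1 *ᵥ v = -v from hv, mulVec_neg, ih, pow_succ]; simp
    have := h n
    rw [hA', hn.neg_one_pow, one_mulVec, neg_one_smul] at this
    exact hv.trans this.symm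

end Conj

section TypeInv

/-- The number of vectors with a given value. -/
noncomputable def cntQ {α : Type*} (Q : α → F) (c : F) : ℕ := Nat.card {v // Q v = c}

/-- The type of a quadratic form, as the signed number `± q ^ m`. -/
noncomputable def tp {α : Type*} (Q : α → F) : ℤ := cntQ Q 0 - cntQ Q 1

theorem cntQ_congr {α β : Type*} {Q : α → F} {Q' : β → F} (φ : α ≃ β) (h : ∀ v, Q' (φ v) = Q v)
    (c : F) : cntQ Q c = cntQ Q' c :=
  Nat.card_congr (φ.subtypeEquiv fun v => by rw [h])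

theorem tp_congr {α β : Type*} {Q : α → F} {Q' : β → F} (φ : α ≃ β) (h : ∀ v, Q' (φ v) = Q v) :
    tp Q = tp Q' := by rw [tp, tp, cntQ_congr φ h, cntQ_congr φ h]

theorem tp_modEq {α : Type*} [Finite α] [Zero α] {Q : α → F} (h0 : Q 0 = 0) {r : ℕ} (hr : r.Prime)
    (g : Function.End α) (hg : g ^ r = 1) (hQ : ∀ v, Q (g v) = Q v) (hf : ∀ v, g v = v ↔ v = 0) :
    tp Q ≡ 1 [ZMOD r] := by
  classical
  have : Fact r.Prime := ⟨hr⟩
  have key : ∀ c, cntQ Q c ≡ Nat.card {v // v = 0 ∧ Q v = c} [MOD r] := fun c => by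
    have := Fintype.ofFinite {v // Q v = c}
    let f : Function.End {v // Q v = c} := fun v => ⟨g v, (hQ v).trans v.2⟩
    have h1 : ∀ k v, ((f ^ k) v).1 = (g ^ k) v.1 := fun k => by
      induction k with
      | zero => exact fun _ => rfl
      | succ k ih => intro v; rw [pow_succ, pow_succ]; exact ih (f v)
    have h2 := Equiv.Perm.card_fixedPoints_modEq (f := f) (p := r) (n := 1)
      (funext fun v => Subtype.ext (by rw [h1, pow_one, hg]; rfl))
    rw [← Nat.card_eq_fintype_card, ← Nat.card_eq_fintype_card] at h2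
    refine h2.trans (congrArg (· % r) (Nat.card_congr
      { toFun := fun v => ⟨v.1.1, (hf _).1 (congrArg Subtype.val v.2), v.1.2⟩
        invFun := fun v => ⟨⟨v.1, v.2.2⟩, Subtype.ext ((hf _).2 v.2.1)⟩
        left_inv := fun _ => rfl
        right_inv := fun _ => rfl }))
  have h1 := key 0
  have h2 := key 1
  have : Unique {v // v = 0 ∧ Q v = 0} := ⟨⟨⟨0, rfl, h0⟩⟩, fun v => Subtype.ext v.2.1⟩
  have : IsEmpty {v // v = 0 ∧ Q v = 1} := ⟨fun v => zero_ne_one (h0.symm.trans (v.2.1 ▸ v.2.2))⟩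
  rw [Nat.card_unique] at h1
  rw [Nat.card_of_isEmpty] at h2
  simpa [tp] using (Int.natCast_modEq_iff.2 h1).sub (Int.natCast_modEq_iff.2 h2)

variable [Fintype F]

theorem sum_cntQ {α : Type*} [Finite α] (Q : α → F) : ∑ c, cntQ Q c = Nat.card α := by
  rw [← Nat.card_congr (Equiv.sigmaFiberEquiv Q), Nat.card_sigma]; rfl

theorem cntQ_prod {α β : Type*} [Finite α] [Finite β] (Q : α → F) (Q' : β → F) (c : F) :
    cntQ (fun v : α × β => Q v.1 + Q' v.2) c = ∑ t, cntQ Q t * cntQ Q' (c - t) := by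
  rw [cntQ, Nat.card_congr (α := {v : α × β // Q v.1 + Q' v.2 = c})
    (β := Σ t, {v // Q v = t} × {v // Q' v = c - t})
    { toFun := fun v => ⟨Q v.1.1, ⟨_, rfl⟩, ⟨_, eq_sub_of_add_eq' v.2⟩⟩
      invFun := fun v => ⟨(v.2.1, v.2.2), by rw [v.2.1.2, v.2.2.2, add_sub_cancel]⟩
      left_inv := fun _ => rfl
      right_inv := fun ⟨_, ⟨_, rfl⟩, _⟩ => rfl }, Nat.card_sigma]
  simp only [Nat.card_prod, cntQ]

/-- All non-zero values are taken equally often. -/
def Unif {α : Type*} (Q : α → F) : Prop := ∀ c, c ≠ 0 → cntQ Q c = cntQ Q 1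

open Classical in
omit [Fintype F] in
theorem Unif.cntQ_eq {α : Type*} {Q : α → F} (h : Unif Q) (c : F) :
    (cntQ Q c : ℤ) = cntQ Q 1 + if c = 0 then tp Q else 0 := by
  split_ifs with hc
  · simp [hc, tp]
  · simp [h c hc]

theorem Unif.tp_add {α : Type*} [Finite α] {Q : α → F} (h : Unif Q) :
    tp Q + Fintype.card F * cntQ Q 1 = Nat.card α := by
  classical
  rw [← sum_cntQ Q]
  push_cast
  rw [Finset.sum_congr rfl fun c _ => h.cntQ_eq c]
  simp [Finset.sum_add_distrib, add_comm]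

theorem Unif.tp_prod {α β : Type*} [Finite α] [Finite β] {Q : α → F} {Q' : β → F} (h : Unif Q)
    (h' : Unif Q') : tp (fun v : α × β => Q v.1 + Q' v.2) = tp Q * tp Q' := by
  classical
  rw [tp, cntQ_prod, cntQ_prod]
  push_cast
  rw [← Finset.sum_sub_distrib, Finset.sum_congr rfl fun t _ => by
    rw [h'.cntQ_eq (0 - t), h'.cntQ_eq (1 - t), ← mul_sub, add_sub_add_left_eq_sub, mul_sub]]
  simp [sub_eq_zero, tp, sub_mul]

variable [FiniteDimensional F V] [FiniteDimensional F W] {Q : QuadraticForm F V}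
  {Q' : QuadraticForm F W}

theorem unif_of_nondeg (hQ : Nondeg Q) (hev : Even (finrank F V)) : Unif Q := fun c hc => by
  obtain ⟨φ, h⟩ := hQ.exists_simil hev hc
  exact (Nat.card_congr (φ.toEquiv.subtypeEquiv fun v => by simp [h, hc])).symm

theorem tp_prod (hQ : Nondeg Q) (hev : Even (finrank F V)) (hQ' : Nondeg Q')
    (hev' : Even (finrank F W)) : tp (Q.prod Q') = tp Q * tp Q' := by
  have : Finite V := Module.finite_of_finite F
  have : Finite W := Module.finite_of_finite F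
  exact (unif_of_nondeg hQ hev).tp_prod (unif_of_nondeg hQ' hev')

omit [Fintype F] [FiniteDimensional F V] [FiniteDimensional F W] in
theorem nondeg_prod (hQ : Nondeg Q) (hQ' : Nondeg Q') : Nondeg (Q.prod Q') :=
  nondeg_of fun x hx => Prod.ext (hQ.eq_zero fun v => by simpa using hx (v, 0))
    (hQ'.eq_zero fun v => by simpa using hx (0, v))

theorem tp_qPlus (m : ℕ) : tp (qPlus m F) = (Fintype.card F : ℤ) ^ m := by
  classical
  have h : ∀ c, cntQ (qPlus m F) c = ∑ x : Fin m → F, Nat.card {y // x ⬝ᵥ y = c} := fun c => by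
    rw [← Nat.card_sigma]
    exact Nat.card_congr
      { toFun := fun v => ⟨v.1 ∘ .inl, v.1 ∘ .inr, (qPlus_apply m v.1).symm.trans v.2⟩
        invFun := fun v => ⟨Sum.elim v.1 v.2, (qPlus_apply m _).trans v.2.2⟩
        left_inv := fun v => Subtype.ext (Sum.elim_comp_inl_inr _)
        right_inv := fun _ => rfl }
  rw [tp, h, h]
  push_cast
  rw [← Finset.sum_sub_distrib, Finset.sum_eq_single 0 (fun x _ hx => ?_) (by simp)]
  · simp
  · obtain ⟨i, hi⟩ := Function.ne_iff.1 hx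
    have hi' : x i ≠ 0 := hi
    rw [Nat.card_congr ((Equiv.addRight (Pi.single i (x i)⁻¹)).subtypeEquiv
      (q := fun y => x ⬝ᵥ y = 1) fun y => by simp [hi']), sub_self]

theorem tp_qMinus (m : ℕ) {a b : F}
    (hab : ∀ z₁ z₂ : F, z₁ ^ 2 + a * z₁ * z₂ + b * z₂ ^ 2 = 0 → z₁ = 0 ∧ z₂ = 0) :
    tp (qMinus m F a b) = -(Fintype.card F : ℤ) ^ (m + 1) := by
  have h0 := nondeg_qMinus 0 (disc_ne_zero_of_anisotropic hab)
  have h1 : tp (qMinus 0 F a b) = -(Fintype.card F : ℤ) := by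
    have h2 := (unif_of_nondeg h0 (by simp)).tp_add
    have : Unique {v // qMinus 0 F a b v = 0} := ⟨⟨⟨0, map_zero _⟩⟩, fun ⟨v, hv⟩ => Subtype.ext (by
      obtain ⟨h3, h4⟩ := hab _ _ (by simpa [qMinus_apply] using hv)
      ext (i | i)
      · exact isEmptyElim i
      · fin_cases i <;> assumption)⟩
    have h3 : cntQ (qMinus 0 F a b) 0 = 1 := Nat.card_unique
    have h4 : (Fintype.card F : ℤ) - 1 ≠ 0 := by have := Fintype.one_lt_card (α := F); omega
    rw [tp, h3] at h2 ⊢
    refine mul_left_cancel₀ h4 ?_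
    simp only [Nat.card_eq_fintype_card, Fintype.card_pi, Finset.prod_const, Finset.card_univ,
      Fintype.card_sum, Fintype.card_fin] at h2
    push_cast at h2 ⊢
    linear_combination -h2
  rw [tp_congr (Q' := (qPlus m F).prod (qMinus 0 F a b))
    { toFun := fun v => (v ∘ .inl, Sum.elim 0 (v ∘ .inr))
      invFun := fun v => Sum.elim v.1 (v.2 ∘ .inr)
      left_inv := fun v => Sum.elim_comp_inl_inr _
      right_inv := fun v => Prod.ext rfl (funext fun i => by
        rcases i with i | i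
        · exact isEmptyElim i
        · rfl) } fun v => by simp [qMinus_apply, qPlus_apply]; rfl,
    tp_prod (nondeg_qPlus m) (by simp) h0 (by simp), tp_qPlus, h1]
  ring

theorem exists_anisotropic (F : Type*) [Field F] [Finite F] :
    ∃ a b : F, ∀ z₁ z₂ : F, z₁ ^ 2 + a * z₁ * z₂ + b * z₂ ^ 2 = 0 → z₁ = 0 ∧ z₂ = 0 := by
  obtain ⟨c, hc⟩ : ∃ c : F, ∀ t, t ^ 2 + t ≠ c := by
    by_contra h
    push Not at h
    simpa using Finite.injective_iff_surjective.2 h (a₁ := 0) (a₂ := -1) (by simp)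
  exact ⟨1, -c, anisotropic_of_no_root fun t h => hc t (by linear_combination h)⟩

theorem tp_eq_or (hQ : Nondeg Q) {m : ℕ} (hm : finrank F V = 2 * m) :
    tp Q = (Fintype.card F : ℤ) ^ m ∨ tp Q = -(Fintype.card F : ℤ) ^ m := by
  rcases Nat.eq_zero_or_pos m with rfl | h0
  · let φ := LinearEquiv.ofFinrankEq V (Fin 0 ⊕ Fin 0 → F) (R := F) (by simp [hm])
    refine Or.inl ((tp_congr φ.toEquiv fun v => ?_).trans (tp_qPlus 0))
    rw [φ.injective (Subsingleton.elim (φ v) (φ 0))]; simp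
  obtain ⟨a, b, hab⟩ := exists_anisotropic F
  rcases hQ.classify_even' h0 hm hab with ⟨φ, h⟩ | ⟨φ, h⟩
  · exact Or.inl ((tp_congr φ.toEquiv h).trans (tp_qPlus m))
  · exact Or.inr ((tp_congr φ.toEquiv h).trans (by rw [tp_qMinus _ hab, Nat.sub_add_cancel h0]))

theorem isom_of_tp (hQ : Nondeg Q) (hQ' : Nondeg Q') (hev : Even (finrank F V))
    (hV : finrank F V = finrank F W) (h : tp Q = tp Q') : ∃ φ : V ≃ₗ[F] W, ∀ v, Q' (φ v) = Q v := by
  obtain ⟨m, hm⟩ := hev
  rw [← two_mul] at hm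
  rcases Nat.eq_zero_or_pos m with rfl | h0
  · have : Subsingleton V := finrank_zero_iff.1 hm
    exact ⟨LinearEquiv.ofFinrankEq V W hV, fun v => by rw [Subsingleton.elim v 0]; simp⟩
  obtain ⟨a, b, hab⟩ := exists_anisotropic F
  have h1 : (0 : ℤ) < (Fintype.card F : ℤ) ^ m := by have := Fintype.card_pos (α := F); positivity
  have h2 := tp_qMinus (m - 1) hab
  rw [Nat.sub_add_cancel h0] at h2
  rcases hQ.classify_even' h0 hm hab with ⟨φ, h3⟩ | ⟨φ, h3⟩ <;>
    rcases hQ'.classify_even' h0 (hV ▸ hm) hab with ⟨φ', h4⟩ | ⟨φ', h4⟩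
  · exact ⟨φ.trans φ'.symm, fun v => by simp [← h3, ← h4]⟩
  · rw [tp_congr φ.toEquiv h3, tp_congr φ'.toEquiv h4, tp_qPlus, h2] at h; omega
  · rw [tp_congr φ.toEquiv h3, tp_congr φ'.toEquiv h4, tp_qPlus, h2] at h; omega
  · exact ⟨φ.trans φ'.symm, fun v => by simp [← h3, ← h4]⟩

end TypeInv

end Cfsg.Agent.Lib.GL.OrthConj
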