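import Mathlib
import Cfsg.Agent.Lib.GL.Invol3
import Cfsg.Agent.Lib.GL.OrthConj
import Cfsg.Agent.Lib.Forms.QuadSum

/-!
Classes and centralisers of involutions of orthogonal groups in characteristic two.
-/

set_option autoImplicit false

open Module Matrix QuadraticMap

namespace Cfsg.Agent.Lib.GL.SymTwo

open Cfsg.Agent.Lib.GL.Alt Cfsg.Agent.Lib.Forms Cfsg.Agent.Lib.GL.OrthConj

theorem card_eq_two_mul {G : Type*} [Group G] (χ : G →* ℤˣ) (C : Subgroup G) {g : G} (hg : g ∈ C)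
    (h : χ g = -1) : Nat.card C = 2 * Nat.card {x // χ x = 1 ∧ x ∈ C} := by
  rw [← (χ.comp C.subtype).ker.index_mul_card, Subgroup.index_ker, MonoidHom.range_eq_top.2 fun u => by
    rcases Int.units_eq_one_or u with rfl | rfl
    exacts [⟨1, map_one _⟩, ⟨⟨g, hg⟩, h⟩]]
  congr 1
  · simp
  · exact Nat.card_congr ⟨fun x => ⟨x.1.1, x.2, x.1.2⟩, fun x => ⟨⟨x.1, x.2.2⟩, x.2.1⟩,
      fun _ => rfl, fun _ => rfl⟩

variable {F : Type*} [Field F] {V : Type*} [AddCommGroup V] [Module F V]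
  {M : Type*} [AddCommGroup M] [Module F M] {M' : Type*} [AddCommGroup M'] [Module F M']

open Classical in
theorem tp_eq_sum {α : Type*} [Fintype α] (f : α → F) :
    tp f = ∑ x, ((if f x = 0 then 1 else 0) - if f x = 1 then 1 else 0) := by
  simp [tp, cntQ, Fintype.card_subtype]

theorem tp_eq_zero {α : Type*} (f : α → F) (e : α ≃ α) (h : ∀ x, f (e x) = f x + 1) : tp f = 0 :=
  sub_eq_zero.2 (congrArg _ (Nat.card_congr (e.subtypeEquiv fun x => by simp [h])))

/-- `Ω` as a group of linear maps. -/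
noncomputable def toOm {ι : Type} [Fintype ι] [DecidableEq ι] (Q : QuadraticForm F (ι → F)) :
    Cfsg.Omega F Q ≃* Om Q :=
  { (toOG Q).toEquiv.subtypeEquiv mem_Omega_iff with
    map_mul' := fun _ _ => Subtype.ext (map_mul (toOG Q) _ _) }

variable {Q : QuadraticForm F V} {t t' : V → V} {i : M →ₗ[F] V} {π : V →ₗ[F] M}
  {c : LinearMap.BilinForm F M} {z : M} {i' : M' →ₗ[F] V} {π' : V →ₗ[F] M'}
  {c' : LinearMap.BilinForm F M'} {z' : M'}

theorem resSp_conj (g T : OG Q) : resSp (g * T * g⁻¹) = img g (resSp T) := by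
  ext x
  rw [mem_img, mem_resSp, mem_resSp, g.1.surjective.exists]
  refine exists_congr fun y => ?_
  rw [← g.1.injective.eq_iff (b := (g⁻¹).1 x)]
  simp [OG.mul_apply]

theorem OG.apply_apply {T : OG Q} (hT : T * T = 1) (x : V) : T.1 (T.1 x) = x := by
  rw [← OG.mul_apply, hT]; rfl

variable [CharP F 2]

theorem isAlt_polarBilin (Q : QuadraticForm F V) : (polarBilin Q).IsAlt := fun v => by
  rw [polarBilin_apply_apply, polar_self', CharTwo.two_eq_zero, zero_mul]

theorem ty_snd_iff (T : OG Q) : (ty (polarBilin Q) T.1).2 ↔ ∀ v ∈ resSp T, Q v = 0 := by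
  simp only [ty, mem_resSp, forall_exists_index, forall_apply_eq_imp_iff]
  refine forall_congr' fun x => ?_
  rw [← neg_eq_zero (a := Q _), ← polar_sub_self, ← polarBilin_apply_apply, map_sub,
    isAlt_polarBilin Q x, sub_zero]

theorem isLag_iff (T : OG Q) {m : ℕ} (hm : finrank F V = 2 * m) :
    IsLag Q (resSp T) ↔ ty (polarBilin Q) T.1 = (m, True) := by
  rw [Prod.ext_iff, eq_iff_iff, iff_true, ty_snd_iff]
  exact ⟨fun h => ⟨mul_left_cancel₀ two_ne_zero (h.2.trans hm), h.1⟩,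
    fun h => ⟨h.2, (congrArg _ h.1).trans hm.symm⟩⟩

/-- The quadratic forms with a given polar form. -/
def addSq (Q : QuadraticForm F V) (w : V) : QuadraticForm F V :=
  Q + linMulLin ((polarBilin Q).flip w) ((polarBilin Q).flip w)

omit [CharP F 2] in
theorem addSq_apply (w v : V) : addSq Q w v = Q v + polar Q v w ^ 2 := by simp [addSq, pow_two]

theorem polarBilin_addSq (w : V) : polarBilin (addSq Q w) = polarBilin Q := by
  ext u v
  rw [polarBilin_apply_apply, polarBilin_apply_apply, polar, addSq_apply, addSq_apply, addSq_apply,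
    polar_add_left, Q_add]
  linear_combination polar Q u w * polar Q v w * (CharTwo.two_eq_zero : (2 : F) = 0)

theorem addSq_injective (hQ : Nondeg Q) : Function.Injective fun w => ⇑(addSq Q w) :=
  fun w w' h => hQ.eq_of_polar fun v => by
    simpa [addSq_apply, polar_comm Q v, CharTwo.sq_inj] using congrFun h v

variable [FiniteDimensional F V]

theorem Data.exists_conj_OG [FiniteDimensional F M] [FiniteDimensional F M']
    (h : Data (polarBilin Q) t i π c z) (h' : Data (polarBilin Q) t' i' π' c' z') (hQ : Nondeg Q)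
    (ht : ∀ x, Q (t x) = Q x) (ht' : ∀ x, Q (t' x) = Q x)
    (hd : finrank F M = finrank F M') (hz : z = 0 ↔ z' = 0) :
    ∃ g : OG Q, ∀ x, g.1 (t x) = t' (g.1 x) := by
  obtain ⟨e, he⟩ := h.sym.exists_isometry h'.sym hd hz
  let b := Module.finBasis F M
  obtain ⟨g, hg⟩ := hQ.witt_family (i ∘ b) ((i' ∘ₗ e.toLinearMap) ∘ b)
    (b.linearIndependent.map' i (LinearMap.ker_eq_bot.2 h.inj))
    (b.linearIndependent.map' _ (LinearMap.ker_eq_bot.2 (h'.inj.comp e.injective)))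
    (fun k l => (h.iso _ _).trans (h'.iso _ _).symm)
    fun k => by simp [h.map_Q_iff.1 ht, h'.map_Q_iff.1 ht', he]
  exact ⟨g, h.conj h' e he g.1 (OG.map_polar g)
    (LinearMap.congr_fun (b.ext (f₁ := g.1.toLinearMap ∘ₗ i) (f₂ := i' ∘ₗ e.toLinearMap) hg))⟩

theorem exists_fix_of_not_isLag (hQ : Nondeg Q) {T : OG Q} (hT : T * T = 1)
    (h : ¬ IsLag Q (resSp T)) : ∃ v, Q v ≠ 0 ∧ Commute (refl Q v) T := by
  suffices ∃ v, Q v ≠ 0 ∧ T.1 v = v from this.imp fun v hv =>
    ⟨hv.1, (mul_inv_eq_iff_eq_mul.1 (by rw [conj_refl, hv.2])).symm⟩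
  by_cases h1 : ∀ v ∈ resSp T, Q v = 0
  · obtain ⟨v, h2, h3⟩ := hQ.exists_Q_ne_zero_perp
      ((hQ.two_mul_finrank_le_of_ts h1).lt_of_ne fun h2 => h ⟨h1, h2⟩)
    exact ⟨v, h3, hQ.fix_of_perp_res fun y hy => by rw [polar_comm, mem_perp.1 h2 y hy]⟩
  push Not at h1
  obtain ⟨_, ⟨x, rfl⟩, h2⟩ := h1
  refine ⟨_, h2, ?_⟩
  change T.1 (T.1 x - x) = T.1 x - x
  rw [map_sub, OG.apply_apply hT, ← neg_sub, ← neg_one_smul F, CharTwo.neg_eq, one_smul]

variable [Finite F]

theorem exists_addSq (hQ : Nondeg Q) {Q' : QuadraticForm F V}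
    (h : ∀ u v, polar Q' u v = polar Q u v) : ∃ w, ⇑(addSq Q w) = Q' := by
  let r := (frobeniusEquiv F 2).symm
  have hr : ∀ a, r a ^ 2 = a := fun a => (frobeniusEquiv F 2).apply_symm_apply a
  obtain ⟨w, hw⟩ := hQ.repr
    { toFun := fun v => r (Q' v - Q v)
      map_add' := fun u v => by rw [← map_add r, Q_add, Q_add, h]; ring_nf
      map_smul' := fun c v => CharTwo.sq_inj.1 (by
        simp only [smul_eq_mul, RingHom.id_apply, mul_pow, hr, Q_smul]; ring) }
  exact ⟨w, funext fun v => by simp [addSq_apply, hw, hr, -map_sub]⟩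

theorem OG.exists_data (hQ : Nondeg Q) {T : OG Q} (hT : T * T = 1) :
    ∃ π c z, Data (polarBilin Q) T.1 (resSp T).subtype π c z :=
  SymTwo.exists_data (isAlt_polarBilin Q) (T := T.1) (OG.map_polar T) (OG.apply_apply hT) hQ

theorem isConj_OG_iff (hQ : Nondeg Q) (T T' : OG Q) (hT : T * T = 1) (hT' : T' * T' = 1) :
    IsConj T T' ↔ ty (polarBilin Q) T.1 = ty (polarBilin Q) T'.1 := by
  refine ⟨fun h => ?_, fun h => ?_⟩
  · obtain ⟨g, rfl⟩ := isConj_iff.1 h
    exact (ty_conj T.1 g.1 (OG.map_polar g)).symm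
  obtain ⟨π, c, z, h1⟩ := OG.exists_data hQ hT
  obtain ⟨π', c', z', h2⟩ := OG.exists_data hQ hT'
  rw [h1.ty_eq (isAlt_polarBilin Q), h2.ty_eq (isAlt_polarBilin Q), Prod.mk.injEq, eq_iff_iff] at h
  obtain ⟨g, hg⟩ := h1.exists_conj_OG h2 hQ T.2 T'.2 h.1 h.2
  exact isConj_iff.2 ⟨g, mul_inv_eq_iff_eq_mul.2 (OG.ext' hg)⟩

theorem mem_Om_iff_even (hQ : Nondeg Q) (hN : NonExc Q) (T : OG Q) :
    T ∈ Om Q ↔ Even (ty (polarBilin Q) T.1).1 := by
  rw [hQ.mem_Om_iff_of_char_two hN, dick, neg_one_pow_eq_one_iff_even (by decide)]; rfl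

theorem isConj_Om_iff (hQ : Nondeg Q) (hN : NonExc Q) (T T' : Om Q) (hT : T * T = 1)
    (hT' : T' * T' = 1) {U : Submodule F V} (hU : IsLag Q (resSp T.1) → IsLag Q U) :
    IsConj T T' ↔ ty (polarBilin Q) T.1.1 = ty (polarBilin Q) T'.1.1 ∧
      (IsLag Q (resSp T.1) → lagPar U (resSp T.1) = lagPar U (resSp T'.1)) := by
  refine ⟨fun h => ?_, fun ⟨h, h'⟩ => ?_⟩
  · obtain ⟨g, rfl⟩ := isConj_iff.1 h
    refine ⟨(ty_conj T.1.1 g.1.1 (OG.map_polar g.1)).symm, fun h1 => ?_⟩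
    rw [show (g * T * g⁻¹).1 = g.1 * T.1 * g.1⁻¹ from rfl, resSp_conj, hQ.lagPar_img hN (hU h1) h1,
      (hQ.mem_Om_iff_of_char_two hN _).1 g.2, one_mul]
  obtain ⟨g, hg⟩ := isConj_iff.1 ((isConj_OG_iff hQ T.1 T'.1 (congrArg Subtype.val hT)
    (congrArg Subtype.val hT')).2 h)
  rcases Int.units_eq_one_or (dick g) with h1 | h1
  · exact isConj_iff.2 ⟨⟨g, (hQ.mem_Om_iff_of_char_two hN _).2 h1⟩, Subtype.ext hg⟩
  by_cases h2 : IsLag Q (resSp T.1)
  · have := h' h2
    rw [← hg, resSp_conj, hQ.lagPar_img hN (hU h2) h2, h1, right_eq_mul] at this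
    exact absurd this (by decide)
  obtain ⟨v, hv, h3⟩ := exists_fix_of_not_isLag hQ (T := T.1) (congrArg Subtype.val hT) h2
  refine isConj_iff.2 ⟨⟨g * refl Q v, (hQ.mem_Om_iff_of_char_two hN _).2 (by
    rw [hQ.dick_mul hN, h1, hQ.dick_refl hv]; decide)⟩, Subtype.ext (Eq.trans ?_ hg)⟩
  simp only [Subgroup.coe_mul, Subgroup.coe_inv, _root_.mul_inv_rev, mul_assoc]
  rw [← mul_assoc _ T.1, h3.eq, mul_assoc, mul_inv_cancel_left]

section Count

variable {F : Type*} [Field F] [Fintype F] [CharP F 2] {V : Type*} [AddCommGroup V] [Module F V]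
  [FiniteDimensional F V] {Q : QuadraticForm F V}

theorem card_tp_addSq (hQ : Nondeg Q) {m : ℕ} (hm : finrank F V = 2 * m) (T : OG Q) :
    2 * tp Q * Nat.card {w : fixSp T // tp (addSq Q w) = tp Q} =
      Nat.card (fixSp T) * (tp (fun u : resSp T => Q u) + tp Q) := by
  classical
  have : Finite V := Module.finite_of_finite F
  let := Fintype.ofFinite V
  have h1 : ∑ w : fixSp T, tp (addSq Q w) = Nat.card (fixSp T) * tp (fun u : resSp T => Q u) := by
    simp only [tp_eq_sum (addSq Q _), addSq_apply]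
    rw [Finset.sum_comm, tp_eq_sum, Finset.mul_sum, ← Finset.sum_subtype (Finset.univ.filter
      (· ∈ resSp T)) (by simp) fun v => (Nat.card (fixSp T) : ℤ) *
        ((if Q v = 0 then 1 else 0) - if Q v = 1 then 1 else 0), Finset.sum_filter]
    refine Finset.sum_congr rfl fun v _ => ?_
    by_cases hv : v ∈ resSp T
    · simp [hv, mul_sub, fun w : fixSp T => (polar_comm Q v w).trans (polar_fix_res (mem_fixSp.1 w.2) hv)]
    rw [if_neg hv, ← tp_eq_sum fun w : fixSp T => Q v + polar Q v w ^ 2]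
    simp only [hQ.mem_resSp_iff, not_forall] at hv
    obtain ⟨x, hx, hv⟩ := hv
    refine tp_eq_zero _ (Equiv.addRight ((polar Q x v)⁻¹ • ⟨x, mem_fixSp.2 hx⟩)) fun w => ?_
    simp [polar_comm Q v x, inv_mul_cancel₀ hv, CharTwo.add_sq, add_assoc]
  have h2 : tp Q ≠ 0 := by rcases tp_eq_or hQ hm with h | h <;> simp [h]
  rw [mul_add, ← h1, Nat.card_eq_fintype_card, Nat.card_eq_fintype_card, Fintype.card_subtype,
    ← nsmul_eq_mul, ← Finset.card_univ, ← Finset.sum_const, ← Finset.sum_add_distrib, mul_comm,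
    ← nsmul_eq_mul, ← Finset.sum_const, Finset.sum_filter]
  refine Finset.sum_congr rfl fun w _ => ?_
  have h3 := tp_eq_or (Q := addSq Q w) (by rw [Nondeg, polarBilin_addSq]; exact hQ) hm
  have h4 := tp_eq_or hQ hm
  split_ifs <;> omega

theorem card_comm_IsoG (hQ : Nondeg Q) {m : ℕ} (hm : finrank F V = 2 * m) {T : OG Q}
    (hT : T * T = 1) : Nat.card {g : IsoG (polarBilin Q) // ∀ x, g.1 (T.1 x) = T.1 (g.1 x)} =
      Nat.card {w : fixSp T // tp (addSq Q w) = tp Q} * Nat.card (Subgroup.centralizer {T}) := by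
  let C := Subgroup.centralizer {(⟨T.1, OG.map_polar T⟩ : IsoG (polarBilin Q))}
  have hC : ∀ g, g ∈ C ↔ ∀ x, g.1 (T.1 x) = T.1 (g.1 x) := fun g => by
    rw [Subgroup.mem_centralizer_singleton_iff]
    exact ⟨fun h x => congrArg (fun g => g.1 x) h, fun h => IsoG.ext' h⟩
  have h1 := card_preimage_coset ((OG Q).comap ((IsoG _).subtype.comp C.subtype))
    (fun g v => Q ((g.1⁻¹).1 v)) (fun g g' => by
      rw [funext_iff, g'.1.1.surjective.forall]
      simp only [IsoG.inv_apply_apply]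
      rfl) (fun y => ∃ g : C, (fun v => Q ((g.1⁻¹).1 v)) = y) fun _ h => h
  rw [Nat.card_congr (Equiv.subtypeUnivEquiv fun g => ⟨g, rfl⟩)] at h1
  rw [← Nat.card_congr (Equiv.subtypeEquivRight hC), h1]
  congr 1
  · have h0 : ∀ w : {w : fixSp T // tp (addSq Q w) = tp Q},
        ∃ g : C, (fun v => Q ((g.1⁻¹).1 v)) = addSq Q w.1 := by
      rintro ⟨⟨w, hw⟩, h⟩
      obtain ⟨φ, hφ⟩ := isom_of_tp (Q := addSq Q w) (by rw [Nondeg, polarBilin_addSq]; exact hQ) hQ
        ⟨m, by omega⟩ rfl h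
      have h2 : ∀ u v, polarBilin Q (φ u) (φ v) = polarBilin Q u v := fun u v =>
        (polar_map_of_isom φ hφ u v).trans (LinearMap.congr_fun₂ (polarBilin_addSq w) u v)
      obtain ⟨π, c, z, h3⟩ := OG.exists_data hQ hT
      obtain ⟨g, hg⟩ := (h3.map φ h2).exists_conj_OG h3 hQ (fun x => by
        rw [hφ, addSq_apply, OG.map_Q, ← mem_fixSp.1 hw, OG.map_polar, ← addSq_apply, ← hφ,
          φ.apply_symm_apply]) T.2 rfl Iff.rfl
      exact ⟨⟨⟨g.1 * φ, fun u v => (OG.map_polar g _ _).trans (h2 u v)⟩,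
        (hC _).2 fun x => by simpa using hg (φ x)⟩⁻¹, funext fun v => by simp [hφ]⟩
    refine (Nat.card_congr (Equiv.ofBijective (fun w => ⟨_, h0 w⟩) ⟨fun w w' h => ?_, ?_⟩)).symm
    · exact Subtype.ext (Subtype.ext (addSq_injective hQ (congrArg Subtype.val h)))
    · rintro ⟨_, g, rfl⟩
      obtain ⟨w, hw⟩ := exists_addSq hQ (Q' := Q.comp (g.1⁻¹).1.toLinearMap) fun u v =>
        (polar_map_of_isom (g.1⁻¹).1 (fun _ => rfl) u v).symm.trans ((g.1⁻¹).2 u v)
      refine ⟨⟨⟨w, mem_fixSp.2 (addSq_injective hQ (funext fun v => ?_))⟩, by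
        rw [hw]; exact tp_congr (g.1⁻¹).1.toEquiv fun _ => rfl⟩, Subtype.ext hw⟩
      obtain ⟨v, rfl⟩ := T.1.surjective v
      beta_reduce
      rw [addSq_apply, OG.map_Q, OG.map_polar, ← addSq_apply, hw]
      exact ((congrArg Q ((hC _).1 (g⁻¹).2 v)).trans (T.2 _)).symm
  · exact Nat.card_congr ⟨fun g => ⟨⟨g.1.1.1, g.2⟩, Subgroup.mem_centralizer_singleton_iff.2
      (OG.ext' ((hC _).1 g.1.2))⟩, fun g => ⟨⟨⟨g.1.1, OG.map_polar g.1⟩, (hC _).2 fun x =>
        congrArg (fun g => g.1 x) (Subgroup.mem_centralizer_singleton_iff.1 g.2)⟩, g.1.2⟩,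
      fun _ => rfl, fun _ => rfl⟩

theorem card_centralizer_Om (hQ : Nondeg Q) (hN : NonExc Q) {m s : ℕ} (hm : finrank F V = 2 * m)
    {T : OG Q} (hT : T * T = 1) (hs : finrank F (resSp T) = s) :
    ∃ (c : LinearMap.BilinForm F (resSp T)) (z : resSp T) (E : ℕ), Sym c z ∧
      ((∀ v ∈ resSp T, Q v = 0) ↔ z = 0) ∧ 2 * E + 3 * s ^ 2 = 4 * (m * s) + s ∧ s ≤ m ∧
      (z ≠ 0 → Nat.card {g : Om Q // g * T = T * g} * Fintype.card F ^ (2 * m - s) =
        Fintype.card F ^ E * Nat.card (IsoG c) * spOrder (Fintype.card F) (m - s)) ∧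
      (z = 0 → tp Q = (Fintype.card F : ℤ) ^ m → (if s = m then 1 else 2) *
        Nat.card {g : Om Q // g * T = T * g} * Fintype.card F ^ (2 * m - s) *
        (Fintype.card F ^ s + Fintype.card F ^ m) = 2 * Fintype.card F ^ m *
        (Fintype.card F ^ E * Nat.card (IsoG c) * spOrder (Fintype.card F) (m - s))) := by
  classical
  obtain ⟨π, c, z, h⟩ := OG.exists_data hQ hT
  obtain ⟨E, h1, h2⟩ := h.card_comm (isAlt_polarBilin Q) hQ hm hs
  have h3 := card_tp_addSq hQ hm T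
  have h4 : (∀ v ∈ resSp T, Q v = 0) ↔ z = 0 :=
    (ty_snd_iff T).symm.trans (h.alt_iff (isAlt_polarBilin Q))
  have h5 : Nat.card {g : Om Q // g * T = T * g} =
      Nat.card {x // hQ.dickHom hN x = 1 ∧ x ∈ Subgroup.centralizer {T}} :=
    Nat.card_congr (Equiv.subtypeSubtypeEquivSubtypeInter _ (fun g => g * T = T * g) |>.trans
      (Equiv.subtypeEquivRight fun g => and_congr (hQ.mem_Om_iff_of_char_two hN g)
        Subgroup.mem_centralizer_singleton_iff.symm))
  have h6 : Nat.card (Subgroup.centralizer {T}) =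
      (if s = m ∧ z = 0 then 1 else 2) * Nat.card {g : Om Q // g * T = T * g} := by
    have h7 : IsLag Q (resSp T) ↔ s = m ∧ z = 0 := by
      simp [isLag_iff T hm, h.ty_eq (isAlt_polarBilin Q), hs]
    rw [h5]
    split_ifs with h8
    · refine (Nat.card_congr (Equiv.subtypeEquivRight fun g => (and_iff_right_of_imp fun hg =>
        hQ.dick_eq_one_of_img_lag hN (h7.2 h8) ?_).symm)).trans (one_mul _).symm
      rw [← resSp_conj, Subgroup.mem_centralizer_singleton_iff.1 hg, mul_inv_cancel_right]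
    · obtain ⟨v, hv, h9⟩ := exists_fix_of_not_isLag hQ hT (mt h7.1 h8)
      exact card_eq_two_mul _ _ (Subgroup.mem_centralizer_singleton_iff.2 h9) (hQ.dick_refl hv)
  have h7 := finrank_res_add_fix T
  rw [Module.natCard_eq_pow_finrank (K := F) (V := fixSp T), Nat.card_eq_fintype_card (α := F),
    show finrank F (fixSp T) = 2 * m - s by omega] at h3
  rw [card_comm_IsoG hQ hm hT, h6] at h2
  have h8 := h.two_mul_le
  refine ⟨c, z, E, h.sym, h4, h1, by omega, fun hz => ?_, fun hz h9 => ?_⟩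
  · obtain ⟨y, hy⟩ := not_forall.1 fun h0 => hz (h.sym.nondeg z h0)
    have h0 : tp Q ≠ 0 := by rcases tp_eq_or hQ hm with h | h <;> simp [h]
    rw [tp_eq_zero _ (Equiv.addRight ((c z y)⁻¹ • y)) fun u => by
      simp only [← Submodule.subtype_apply, h.map_Q_iff.1 T.2, h.sym.sq]
      simp [h.sym.symm y z, inv_mul_cancel₀ hy, CharTwo.add_sq], zero_add, mul_right_comm,
      mul_left_inj' h0] at h3
    rw [← h2, if_neg fun h => hz h.2]
    zify at h3 ⊢
    rw [← h3]; ring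
  · have : Finite V := Module.finite_of_finite F
    rw [← h2, if_congr (and_iff_left hz) rfl rfl]
    rw [show tp (fun u : resSp T => Q u) = Fintype.card F ^ s by
      simp [tp, cntQ, fun u : resSp T => h4.2 hz u u.2, Module.natCard_eq_pow_finrank (K := F), hs]] at h3
    generalize Nat.card {w : fixSp T // tp (addSq Q w) = tp Q} = N at h3
    rw [h9] at h3
    generalize (if s = m then 1 else 2) = a
    zify at h3 ⊢
    rw [mul_assoc, ← h3]; ring

theorem card_centralizer_Omega {ι : Type} [Fintype ι] [DecidableEq ι] {Q : QuadraticForm F (ι → F)}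
    (x : Cfsg.isometryGroup F Q) : Nat.card {g : Cfsg.Omega F Q // g * x = x * g} =
      Nat.card {g : Om Q // g * toOG Q x = toOG Q x * g} :=
  Nat.card_congr ((toOm Q).subtypeEquiv fun g => by
    rw [← (toOG Q).injective.eq_iff, map_mul, map_mul]; rfl)

end Count

end Cfsg.Agent.Lib.GL.SymTwo
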