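import Mathlib
import Cfsg.Agent.Lib.GL.Jordan3

/-!
Sesquilinear forms invariant under a unipotent endomorphism `1 + N`, and the forms they induce on
the multiplicity spaces of the Jordan blocks.
-/

set_option autoImplicit false

open Module Matrix Polynomial

namespace Cfsg.Agent.Lib.GL.Jordan

variable {K : Type*} [Field K] {V : Type*} [AddCommGroup V] [Module K V] {σ : K →+* K}

/-- `B` is invariant under `1 + N`. -/
def Inv (B : V →ₗ[K] V →ₛₗ[σ] K) (N : End K V) : Prop := ∀ x y, B (x + N x) (y + N y) = B x y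

variable {B : V →ₗ[K] V →ₛₗ[σ] K} {N : End K V}

theorem inv_iff_sub_one {u : End K V} : Inv B (u - 1) ↔ ∀ x y, B (u x) (u y) = B x y := by
  simp [Inv]

namespace Inv

variable (hB : Inv B N)
include hB

theorem rel (x y : V) : B (N x) y + B x (N y) + B (N x) (N y) = 0 := by
  have := hB x y
  simp only [map_add, LinearMap.add_apply] at this
  linear_combination this

theorem pow_left_eq_zero {a : ℕ} (x : V) {y : V} (hy : (N ^ a) y = 0) : B ((N ^ a) x) y = 0 := by
  induction a generalizing x y with
  | zero => simp_all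
  | succ a ih =>
    have h1 := hB.rel ((N ^ a) x) y
    have h2 := ih (x + N x) (y := N y) hy
    have h3 : (N ^ a) (N x) = N ((N ^ a) x) := by
      rw [← End.mul_apply, ← pow_succ, pow_succ', End.mul_apply]
    rw [map_add, map_add, LinearMap.add_apply, h3] at h2
    rw [pow_succ', End.mul_apply]
    linear_combination h1 - h2

theorem pow_right_eq_zero {a : ℕ} {x : V} (y : V) (hx : (N ^ a) x = 0) : B x ((N ^ a) y) = 0 := by
  induction a generalizing x y with
  | zero => simp_all
  | succ a ih =>
    have h1 := hB.rel x ((N ^ a) y)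
    have h2 := ih (x := N x) (y + N y) hx
    have h3 : (N ^ a) (N y) = N ((N ^ a) y) := by
      rw [← End.mul_apply, ← pow_succ, pow_succ', End.mul_apply]
    rw [map_add, map_add, h3] at h2
    rw [pow_succ', End.mul_apply]
    linear_combination h1 - h2

theorem pow_add_left (a c : ℕ) (x : V) {y : V} (hy : (N ^ (a + c + 1)) y = 0) :
    B ((N ^ (a + c)) x) y = (-1) ^ c * B ((N ^ a) x) ((N ^ c) y) := by
  induction c generalizing y with
  | zero => simp
  | succ c ih =>
    have h1 := hB.rel ((N ^ (a + c)) x) y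
    have h2 := ih (y := N y) hy
    have h3 := hB.pow_left_eq_zero x (y := N y) (a := a + c + 1) hy
    rw [pow_succ', End.mul_apply] at h3
    rw [← add_assoc, pow_succ' N, End.mul_apply, pow_succ N c, End.mul_apply]
    linear_combination h1 - h2 - h3

theorem comp_left {g : End K V} (hg : Commute g N) : Inv (B ∘ₗ g) N := fun x y => by
  rw [LinearMap.comp_apply, map_add g, ← End.mul_apply g N, hg.eq]
  exact hB _ _

theorem comp_right {g : End K V} (hg : Commute g N) : Inv (B.compl₂ g) N := fun x y => by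
  rw [LinearMap.compl₂_apply, map_add g, ← End.mul_apply g N, hg.eq]
  exact hB _ _

end Inv

variable {ι : Type*} {d : ι → ℕ} {b : Basis (Σ k, Fin (d k)) K V}

/-- The pairing between the kernel of `N` and the generators. -/
noncomputable def gram (B : V →ₗ[K] V →ₛₗ[σ] K) (b : Basis (Σ k, Fin (d k)) K V) : Matrix ι ι K :=
  Matrix.of fun k l => B (bb b k (d k - 1)) (bb b l 0)

/-- The form induced on the multiplicity space of the blocks of size `i`. -/
noncomputable def fblk (B : V →ₗ[K] V →ₛₗ[σ] K) (b : Basis (Σ k, Fin (d k)) K V) (i : ℕ) :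
    Matrix {k // d k = i} {k // d k = i} K := (gram B b).toSquareBlock d i

theorem fblk_apply (i : ℕ) (k l : {k // d k = i}) :
    fblk B b i k l = B (bb b k.1 (i - 1)) (bb b l.1 0) := by
  obtain ⟨k, rfl⟩ := k; rfl

namespace IsJordan

variable (h : IsJordan N d b) (hB : Inv B N)
include h hB

theorem gram_blockTriangular : (gram B b).BlockTriangular d := fun k l hkl => by
  rw [gram, of_apply, ← h.pow_gen]
  exact hB.pow_left_eq_zero _ (h.pow_gen_eq_zero (by omega))

theorem fblk_swap {i : ℕ} (k l : {k // d k = i}) :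
    fblk B b i k l = (-1) ^ (i - 1) * B (bb b k.1 0) (bb b l.1 (i - 1)) := by
  have h1 := h.pos l.1
  have h2 := l.2
  have := hB.pow_add_left 0 (i - 1) (bb b k.1 0) (y := bb b l.1 0) (h.pow_gen_eq_zero (by omega))
  simpa [fblk_apply, h.pow_gen] using this

variable [Fintype ι]

theorem isUnit_gram [DecidableEq ι] (hn : ∀ x, (∀ y, B x y = 0) → x = 0) : IsUnit (gram B b) := by
  rw [← vecMul_injective_iff_isUnit]
  refine (injective_iff_map_eq_zero (gram B b).vecMulLinear).2 fun c hc => ?_
  have h1 : N (∑ k, c k • bb b k (d k - 1)) = 0 := by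
    rw [map_sum]
    exact Finset.sum_eq_zero fun k _ => by rw [map_smul, h.step, bb_of_le _ (by omega), smul_zero]
  have h2 : ∑ k, c k • bb b k (d k - 1) = 0 := by
    refine hn _ fun y => ?_
    obtain ⟨w, hw⟩ := h.eq_sum_gen_add y
    have h3 := hB.pow_right_eq_zero (a := 1) w h1
    rw [pow_one] at h3
    rw [hw, map_add, h3, add_zero, map_sum]
    refine Finset.sum_eq_zero fun l _ => ?_
    have := congrFun hc l
    simp only [vecMulLinear_apply, vecMul, dotProduct, gram, of_apply, Pi.zero_apply] at this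
    simp [this]
  ext k
  have := congrArg (co b k (d k - 1)) h2
  have h4 := h.pos k
  rw [map_sum, Finset.sum_eq_single k (fun l _ hl => by simp [co_bb, hl]) (by simp)] at this
  simpa [co_bb, h4] using this

theorem isUnit_fblk [DecidableEq ι] (hn : ∀ x, (∀ y, B x y = 0) → x = 0) (i : ℕ) :
    IsUnit (fblk B b i) :=
  (Jordan.isUnit_iff_blocks (h.gram_blockTriangular hB)).1 (h.isUnit_gram hB hn) i

theorem fblk_comp_left {g : End K V} (hg : Commute g N) (i : ℕ) :
    fblk (B ∘ₗ g) b i = ((genMat b g).toSquareBlock d i)ᵀ * fblk B b i := by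
  ext k l
  obtain ⟨w, hw⟩ := h.eq_sum_gen_add (g (bb b k.1 0))
  have h1 := h.pos k.1
  have h2 := k.2
  have h3 : (N ^ (i - 1)) (N w) = (N ^ i) w := by
    rw [← End.mul_apply, ← pow_succ, Nat.sub_add_cancel (by omega)]
  rw [fblk_apply, LinearMap.comp_apply, h.apply_bb hg, hw, map_add, map_add, LinearMap.add_apply, h3,
    hB.pow_left_eq_zero _ (h.pow_gen_eq_zero l.2.le), add_zero, map_sum, map_sum, LinearMap.sum_apply,
    sum_eq_sum_block (d := d) (i := i), mul_apply]
  · refine Finset.sum_congr rfl fun m _ => ?_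
    simp [h.pow_gen, fblk_apply, toSquareBlock_def, genMat_apply]
  · intro m hm
    rcases lt_or_gt_of_ne hm with h4 | h4
    · simp [h.pow_gen_eq_zero (show d m ≤ i - 1 by omega)]
    · rw [← genMat_apply, h.genMat_blockTriangular hg (show d k.1 < d m by omega)]; simp

theorem fblk_comp_right {g : End K V} (hg : Commute g N) (i : ℕ) :
    fblk (B.compl₂ g) b i = fblk B b i * ((genMat b g).toSquareBlock d i).map σ := by
  ext k l
  obtain ⟨w, hw⟩ := h.eq_sum_gen_add (g (bb b l.1 0))
  have h1 := h.pos k.1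
  have h2 := k.2
  have h2' := l.2
  have h3 := hB.pow_right_eq_zero (a := 1) (x := bb b k.1 (i - 1)) w (by
    rw [pow_one, h.step, bb_of_le _ (by omega)])
  rw [pow_one] at h3
  rw [fblk_apply, LinearMap.compl₂_apply, hw, map_add, h3, add_zero, map_sum,
    sum_eq_sum_block (d := d) (i := i), mul_apply]
  · refine Finset.sum_congr rfl fun m _ => ?_
    simp [fblk_apply, toSquareBlock_def, genMat_apply, mul_comm]
  · intro m hm
    rcases lt_or_gt_of_ne hm with h4 | h4
    · rw [LinearMap.map_smulₛₗ, ← h.pow_gen k.1,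
        hB.pow_left_eq_zero _ (h.pow_gen_eq_zero (show d m ≤ i - 1 by omega)), smul_zero]
    · rw [← genMat_apply, h.genMat_blockTriangular hg (show d l.1 < d m by omega)]; simp

omit hB in
theorem pow_sum_gen {i : ℕ} (c : {k // d k = i} → K) : (N ^ i) (∑ k, c k • bb b k.1 0) = 0 := by
  rw [map_sum]
  exact Finset.sum_eq_zero fun k _ => by rw [map_smul, h.pow_gen_eq_zero k.2.le, smul_zero]

omit hB in
theorem apply_sum_gen {i : ℕ} (c c' : {k // d k = i} → K) :
    B ((N ^ (i - 1)) (∑ k, c k • bb b k.1 0)) (∑ k, c' k • bb b k.1 0) =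
      c ⬝ᵥ fblk B b i *ᵥ fun k => σ (c' k) := by
  simp only [map_sum, map_smul, h.pow_gen, LinearMap.sum_apply, LinearMap.smul_apply,
    LinearMap.map_smulₛₗ, smul_eq_mul, dotProduct, mulVec, fblk_apply, Finset.mul_sum]
  rw [Finset.sum_comm]
  exact Finset.sum_congr rfl fun _ _ => Finset.sum_congr rfl fun _ _ => by ring

theorem fblk_alt (hA : ∀ x, B x x = 0) {i : ℕ} (hi : Odd i) (c : {k // d k = i} → K) :
    c ⬝ᵥ fblk B b i *ᵥ (fun k => σ (c k)) = 0 := by
  obtain ⟨j, hj⟩ := hi
  rw [← h.apply_sum_gen, show i - 1 = j + j by omega, hB.pow_add_left j j _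
    (by rw [show j + j + 1 = i by omega]; exact h.pow_sum_gen c), hA, mul_zero]

end IsJordan

end Cfsg.Agent.Lib.GL.Jordan
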