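import Mathlib

/-!
Generation of `SL_n` by transvections, perfectness and normal subgroups.
-/

set_option autoImplicit false

open Matrix Matrix.SpecialLinearGroup
open scoped commutatorElement LinearAlgebra.Projectivization

namespace Cfsg.Agent.Lib.GL.SLNormal

variable {F ι : Type*} [Field F] [Fintype ι] [DecidableEq ι]

theorem diag2n_decompose {i j : ι} (h : i ≠ j) (a : F) (ha : a ≠ 0) :
    diag2n h a ha = transvection h a * transvection h.symm (-a⁻¹) * transvection h a *
      transvection h (-1) * transvection h.symm 1 * transvection h (-1) := by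
  ext k l
  simp only [coe_mul, transvection_coe, mul_add, add_mul, single_mul_single_same,
    single_mul_single_of_ne _ _ _ _ h, single_mul_single_of_ne _ _ _ _ h.symm, Matrix.one_mul,
    Matrix.mul_one, diag2n_coe, Matrix.add_apply, Matrix.zero_mul, Matrix.zero_apply]
  by_cases h1 : k = i <;> by_cases h2 : k = j <;> by_cases h3 : l = i <;> by_cases h4 : l = j <;>
    simp_all [diagonal_apply, one_apply, single_apply, eq_comm]

theorem SL_induction [Nontrivial ι] (P : SpecialLinearGroup ι F → Prop)
    (ht : ∀ (i j : ι) (h : i ≠ j) c, P (transvection h c)) (hmul : ∀ A B, P A → P B → P (A * B))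
    (A : SpecialLinearGroup ι F) : P A :=
  diagonal_transvection_induction' P _ (fun i j h c hc => by
    rw [diag2n_decompose h c hc]
    exact hmul _ _ (hmul _ _ (hmul _ _ (hmul _ _ (hmul _ _ (ht ..) (ht ..)) (ht ..)) (ht ..)) (ht ..))
      (ht ..)) ht hmul

theorem commutator_transvection {i j k : ι} (h1 : i ≠ j) (h2 : j ≠ k) (h3 : i ≠ k) (c : F) :
    ⁅transvection h1 c, transvection h2 (1 : F)⁆ = transvection h3 c := by
  rw [commutatorElement_def, transvection_inv, transvection_inv]
  refine Subtype.ext ?_
  simp [transvection_coe, mul_add, add_mul, single_mul_single_of_ne _ _ _ _ h1.symm,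
    single_mul_single_of_ne _ _ _ _ h2.symm, single_mul_single_of_ne _ _ _ _ h3.symm,
    single_mul_single_of_ne _ _ _ _ h2, ← single_neg]
  abel

theorem commutator_SL [Fintype F] {n : ℕ} (hex : ¬ (n = 2 ∧ Fintype.card F ≤ 3)) :
    commutator (SpecialLinearGroup (Fin n) F) = ⊤ := by
  rcases lt_trichotomy n 2 with h | rfl | h
  · have : Subsingleton (Fin n) := Fin.subsingleton_iff_le_one.2 (by omega)
    exact Subsingleton.elim _ _
  · obtain ⟨x, hx⟩ := IsCyclic.exists_ofOrder_eq_natCard (α := Fˣ)
    refine SL2.commutator_eq_top x.ne_zero fun h => hex ⟨rfl, ?_⟩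
    have := orderOf_le_of_pow_eq_one two_pos (Units.ext (by simpa using h) : x ^ 2 = 1)
    rw [hx, Nat.card_units, Nat.card_eq_fintype_card] at this
    omega
  have : Nontrivial (Fin n) := Fin.nontrivial_iff_two_le.2 h.le
  refine top_unique fun A _ => SL_induction _ (fun i k h3 c => ?_) (fun _ _ => mul_mem) A
  obtain ⟨j, h1, h2⟩ := Fintype.exists_ne_of_one_lt_card (α := {j // j ≠ i})
    (by simp; omega) ⟨k, h3.symm⟩ |>.imp' (q := fun j => j ≠ i ∧ j ≠ k) Subtype.val
      fun j hj => ⟨j.2, fun h => hj (Subtype.ext h)⟩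
  rw [← commutator_transvection h1.symm h2]
  exact Subgroup.commutator_mem_commutator (Subgroup.mem_top _) (Subgroup.mem_top _)

theorem commutator_le_or (N : Subgroup (SpecialLinearGroup ι F)) [N.Normal] :
    N ≤ Subgroup.center _ ∨ commutator (SpecialLinearGroup ι F) ≤ N := by
  cases subsingleton_or_nontrivial ι
  · exact .inr fun g _ => Subsingleton.elim 1 g ▸ one_mem N
  refine or_iff_not_imp_left.2 fun h => MulAction.IwasawaStructure.commutator_le
    (α := ℙ F (ι → F)) ⟨fun p => lineStab p.submodule, fun p => ?_, fun g p => ?_, ?_⟩ N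
    fun h1 => h fun g hg => ?_
  · rw [← Projectivization.mk_rep p, Projectivization.submodule_mk]
    exact lineStab_isMulCommutative_of_span p.rep p.rep_nonzero
  · rw [PSL.smul_submodule, lineStab_smul]
  · refine top_unique fun A _ => SL_induction _ (fun i j h c => ?_) (fun _ _ => mul_mem) A
    exact Subgroup.mem_iSup_of_mem (.mk F (Pi.single i 1) (by simp))
      (by simpa using SL2Gen.transvection_mem_lineStab h c)
  · rw [← Projectivization.SL_mulAction_ker]
    exact Equiv.ext fun p => Set.eq_univ_iff_forall.1 h1 p ⟨g, hg⟩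

end Cfsg.Agent.Lib.GL.SLNormal
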